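import Cfsg.Agent.TwE6Five.Class

/-!
Elements of order five in the twisted group of type E6 over any field with four elements (owner: helper16).
-/

set_option autoImplicit false

namespace Cfsg.Agent.TwE6Five

open Cfsg Cfsg.Lie Cfsg.Agent.ChevGrp Cfsg.Agent.GFour25

variable {K : Type*} [Field K]

theorem map_Tw_le {L : Type*} [Field L] (f : K →+* L) :
    (twistedE6 K 2).map (Matrix.GeneralLinearGroup.map (n := chevE6.Idx) f) ≤ twistedE6 L 2 := by
  rw [twistedE6, ChevalleyDatum.genSubgroup, MonoidHom.map_closure, Subgroup.closure_le]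
  rintro _ ⟨g, ⟨w, hw, hg⟩, rfl⟩
  rw [ChevTw.eq_word_of_mat (rulesE K) hg, map_list_prod, List.map_map]
  have e : ((w.map fun p => xGL chevE6 K p.1 p.2).map fun x => Matrix.GeneralLinearGroup.map (n := chevE6.Idx) f x) =
      (w.map fun p => (p.1, f p.2)).map fun p => xGL chevE6 L p.1 p.2 := by
    rw [List.map_map, List.map_map]
    refine List.map_congr_left fun p _ => Units.ext ?_
    show ((xGL chevE6 K p.1 p.2 : GL chevE6.Idx K) : Matrix chevE6.Idx chevE6.Idx K).map f = _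
    rw [val_xGL (rulesE K), x_map]
    exact (val_xGL (rulesE L) _ _).symm
  rw [← List.map_map, e]
  refine ChevTw.word_mem_genSubgroup (rulesE L) ?_
  rcases hw with ⟨t, ht, r, hr, rfl⟩ | ⟨t, rs, hrs, rfl⟩
  · exact Or.inl ⟨f t, by rw [← map_pow, ht], r, hr, rfl⟩
  · exact Or.inr ⟨f t, rs, hrs, by simp⟩

/-- The twisted groups over isomorphic fields. -/
theorem equiv_Tw {L : Type*} [Field L] (f : K ≃+* L) : Nonempty (↥(twistedE6 K 2) ≃* ↥(twistedE6 L 2)) := by
  have h : (twistedE6 K 2).map (Matrix.GeneralLinearGroup.map (n := chevE6.Idx) (f : K →+* L)) = twistedE6 L 2 := by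
    refine le_antisymm (map_Tw_le _) fun g hg => ?_
    refine ⟨Matrix.GeneralLinearGroup.map (n := chevE6.Idx) (f.symm : L →+* K) g, map_Tw_le _ ⟨g, hg, rfl⟩, ?_⟩
    ext i j
    simp
  exact ⟨((twistedE6 K 2).equivMapOfInjective _ (glMap_injective chevE6 (f : K →+* L))).trans
    (MulEquiv.subgroupCongr h)⟩

variable [Fintype K]

theorem order_five (hK : Fintype.card K = 4) :
    (∀ x y : ↥(twistedE6 K 2), orderOf x = 5 → orderOf y = 5 → IsConj x y) ∧
      ∀ x : ↥(twistedE6 K 2), orderOf x = 5 →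
        Nonempty (↥(Subgroup.centralizer ({x} : Set ↥(twistedE6 K 2))) ≃*
          (Multiplicative (ZMod 5) × ↥(alternatingGroup (Fin 8)))) := by
  obtain ⟨f⟩ := exists_ringEquiv hK
  obtain ⟨Φ⟩ := equiv_Tw f
  have conj4 : ∀ x y : ↥Tw4, orderOf x = 5 → orderOf y = 5 → IsConj x y := fun x y hx hy =>
    (all_conj x hx).symm.trans (all_conj y hy)
  refine ⟨fun x y hx hy => ?_, fun x hx => ?_⟩
  · obtain ⟨c, hc⟩ :=
      isConj_iff.1 (conj4 (Φ.symm x) (Φ.symm y) (by rw [MulEquiv.orderOf_eq, hx]) (by rw [MulEquiv.orderOf_eq, hy]))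
    refine isConj_iff.2 ⟨Φ c, ?_⟩
    have h := congrArg Φ hc
    simpa only [map_mul, map_inv, MulEquiv.apply_symm_apply] using h
  · obtain ⟨c, hc⟩ := isConj_iff.1 (conj4 xTw (Φ.symm x) xTw_order (by rw [MulEquiv.orderOf_eq, hx]))
    obtain ⟨e⟩ := cent_equiv
    let Ψ : ↥Tw4 ≃* ↥(twistedE6 K 2) := (MulAut.conj c).trans Φ
    have hx' : Ψ xTw = x := by
      show Φ (c * xTw * c⁻¹) = x
      rw [hc, MulEquiv.apply_symm_apply]
    have hm : Subgroup.centralizer ({x} : Set ↥(twistedE6 K 2)) =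
        (Subgroup.centralizer ({xTw} : Set ↥Tw4)).map Ψ.toMonoidHom := by
      ext z
      rw [Subgroup.mem_map_equiv, Subgroup.mem_centralizer_singleton_iff, Subgroup.mem_centralizer_singleton_iff,
        ← Ψ.injective.eq_iff, map_mul, map_mul, MulEquiv.apply_symm_apply, hx']
    exact ⟨((MulEquiv.subgroupCongr hm).trans
      (Subgroup.equivMapOfInjective _ Ψ.toMonoidHom Ψ.injective).symm).trans e⟩

end Cfsg.Agent.TwE6Five
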