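import Cfsg.Agent.TwE6Five.Setup

/-!
The torus elements over sixteen elements on which the twisted endomorphism acts as the conjugating involution are
the powers of the torus element of order five (owner: helper16).
-/

set_option autoImplicit false

namespace Cfsg.Agent.TwE6Five

open Cfsg Cfsg.Lie Cfsg.Agent.ChevGrp Cfsg.Agent.EInvol

theorem X16_inj {r : ℕ} (hr : r < chevE6.nroots) {t u : F16} (h : X16 r t = X16 r u) : t = u := by
  have h1 : chevE6.x F16 r t = chevE6.x F16 r u := by rw [← val_xGL (rulesE F16), ← val_xGL (rulesE F16)]; exact congrArg Units.val h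
  have h2 : chevE6.x F16 r (t + -u) = 1 := by
    rw [← Chev.validE6.x_add hr, h1, Chev.validE6.x_add hr, add_neg_cancel, (rulesE F16).x_zero r hr]
  have h3 := (Chev.validE6.x_eq_one_iff hr).1 h2
  rwa [← sub_eq_add_neg, sub_eq_zero] at h3

/-- A generator of the multiplicative group. -/
def gg : F16 := om * zeta

theorem gg_ne : gg ≠ 0 := by decide +kernel

theorem gg_pow : gg ^ 15 = 1 ∧ gg ^ 6 = zeta := by decide +kernel

theorem gg_log : ∀ c : F16, c ≠ 0 → ∃ k : Fin 15, gg ^ k.val = c := by decide +kernel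

theorem gg_small : ∀ k : Fin 15, gg ^ k.val = 1 → k.val = 0 := by decide +kernel

theorem gg_zpow_eq_one {a : ℤ} (h : gg ^ a = 1) : a % 15 = 0 := by
  have h15 : gg ^ (15 : ℤ) = 1 := by rw [show (15 : ℤ) = ((15 : ℕ) : ℤ) from rfl, zpow_natCast]; exact gg_pow.1
  have e : gg ^ a = gg ^ (a % 15) := by
    conv_lhs => rw [← Int.emod_add_mul_ediv a 15, zpow_add₀ gg_ne, zpow_mul, h15, one_zpow, mul_one]
  have hn : a % 15 = (((a % 15).toNat : ℕ) : ℤ) := (Int.toNat_of_nonneg (Int.emod_nonneg _ (by norm_num))).symm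
  rw [e, hn, zpow_natCast] at h
  have := gg_small ⟨(a % 15).toNat, by omega⟩ h
  simp only at this
  omega

theorem zeta_zpow (a : ℤ) : zeta ^ a = gg ^ (6 * a) := by
  rw [zpow_mul, show (6 : ℤ) = ((6 : ℕ) : ℤ) from rfl, zpow_natCast, gg_pow.2]

/-- The exponent of a torus element with exponents `v` at a root. -/
def eExp (v : Fin chevE6.rank → ℤ) (r : ℕ) : ℤ := ∑ i, v i * chevE6.cartan i r

theorem hbar_char {h : G16} (hh : h ∈ S16.Hbar) : ∃ v : Fin chevE6.rank → ℤ,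
    ∀ s < chevE6.nroots, ∀ t : F16, h * X16 s t * h⁻¹ = X16 s (gg ^ eExp v s * t) := by
  refine Subgroup.closure_induction (p := fun h _ => ∃ v : Fin chevE6.rank → ℤ,
    ∀ s < chevE6.nroots, ∀ t : F16, h * X16 s t * h⁻¹ = X16 s (gg ^ eExp v s * t)) ?_ ?_ ?_ ?_ hh
  · rintro _ ⟨i, c, hc, rfl⟩
    obtain ⟨k, rfl⟩ := gg_log c hc
    refine ⟨Pi.single i (k.val : ℤ), fun s hs t => ?_⟩
    have e : eExp (Pi.single i (k.val : ℤ)) s = (k.val : ℤ) * chevE6.cartan i s := by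
      simp [eExp, Pi.single_apply, Finset.sum_ite_eq']
    rw [e, zpow_mul, zpow_natCast]
    exact S16.conjP_hI (rulesE F16) rootTable i hc s hs t
  · exact ⟨0, fun s _ t => by simp [eExp]⟩
  · rintro a b - - ⟨v, hv⟩ ⟨w, hw⟩
    refine ⟨v + w, fun s hs t => ?_⟩
    rw [show a * b * X16 s t * (a * b)⁻¹ = a * (b * X16 s t * b⁻¹) * a⁻¹ by group, hw s hs, hv s hs]
    congr 1
    simp only [eExp, Pi.add_apply, add_mul, Finset.sum_add_distrib, zpow_add₀ gg_ne, mul_assoc]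
  · rintro a - ⟨v, hv⟩
    refine ⟨-v, fun s hs t => ?_⟩
    have := hv s hs (gg ^ eExp (-v) s * t)
    rw [← mul_assoc, ← zpow_add₀ gg_ne, show eExp v s + eExp (-v) s = 0 by
      simp [eExp], zpow_zero, one_mul] at this
    rw [← this]
    group

theorem eExp_lin (v : Fin chevE6.rank → ℤ) {r : ℕ} (hr : r < chevE6.nroots) :
    eExp v r = ∑ l : Fin chevE6.rank, cf chevE6 r l * eExp v (chevE6.simple l) := by
  simp only [eExp, Finset.mul_sum]
  rw [Finset.sum_comm]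
  refine Finset.sum_congr rfl fun i _ => ?_
  rw [good.cartan_sum i hr, Finset.mul_sum]
  exact Finset.sum_congr rfl fun l _ => by ring

theorem chi_lin {r : ℕ} (hr : r < chevE6.nroots) :
    6 * chiE r = eExp (fun i => ([6, 0, 0, 0, 0, 12] : List ℤ).getD i.val 0) r := by
  revert r
  decide +kernel

theorem nEl0_X {s : ℕ} (hs : s < chevE6.nroots) (t : F16) :
    nEl0 * X16 s t * nEl0 = X16 (chevE6.reflectRoot 0 s) t := by
  have h := EInvol.nW_conj (rulesE F16) good [node0] s hs t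
  rw [Sys.nW_singleton, act_singleton] at h
  have e : (S16.nI node0)⁻¹ = S16.nI node0 := inv_eq_of_mul_eq_one_right nEl0_sq
  rw [e] at h
  exact h

theorem rho_lt : ∀ s < chevE6.nroots, rho s < chevE6.nroots := by decide +kernel

theorem reflect0_lt : ∀ s < chevE6.nroots, chevE6.reflectRoot 0 s < chevE6.nroots := by decide +kernel

/-- The linear equations. -/
theorem eqs_solved {y0 y1 y2 y3 y4 y5 : ℤ} (h0 : (y5 - 2 * y0) % 15 = 0) (h1 : (y1 - 2 * y1) % 15 = 0)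
    (h2 : (y4 - 2 * y2) % 15 = 0) (h3 : (y3 - 2 * y3) % 15 = 0) (h4 : (y2 + y0 - 2 * y4) % 15 = 0)
    (h5 : (-y0 - 2 * y5) % 15 = 0) (hk : (y0 + 2 * y2 + y4 + 2 * y5) % 3 = 0) :
    ∃ k : ℕ, (y0 - k * 12) % 15 = 0 ∧ y1 % 15 = 0 ∧ (y2 - k * 9) % 15 = 0 ∧ y3 % 15 = 0 ∧
      (y4 - k * 3) % 15 = 0 ∧ (y5 - k * 9) % 15 = 0 := by
  refine ⟨(2 * (y2 / 3) % 15).toNat, ?_⟩
  omega

theorem torus_facts : (∀ l : Fin chevE6.rank, chevE6.reflectRoot 0 (rho (chevE6.simple l)) < chevE6.nroots) ∧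
    (∀ l m : Fin chevE6.rank, cf chevE6 (chevE6.reflectRoot 0 (rho (chevE6.simple l))) m =
      (([[0, 0, 0, 0, 0, 1], [0, 1, 0, 0, 0, 0], [0, 0, 0, 0, 1, 0], [0, 0, 0, 1, 0, 0], [1, 0, 1, 0, 0, 0],
        [-1, 0, 0, 0, 0, 0]] : List (List ℤ)).getD l.val []).getD m.val 0) ∧
    (∀ i : Fin chevE6.rank, (3 : ℤ) ∣ chevE6.cartan i 56 + 2 * chevE6.cartan i 42 + chevE6.cartan i 37 +
      2 * chevE6.cartan i 36) ∧
    chiE 56 * 6 = 12 ∧ chiE 46 * 6 = 0 ∧ (chiE 42 * 6 - 9) % 15 = 0 ∧ chiE 39 * 6 = 0 ∧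
      (chiE 37 * 6 - 3) % 15 = 0 ∧ (chiE 36 * 6 - 9) % 15 = 0 ∧
    chevE6.simple 0 = 56 ∧ chevE6.simple 1 = 46 ∧ chevE6.simple 2 = 42 ∧ chevE6.simple 3 = 39 ∧
      chevE6.simple 4 = 37 ∧ chevE6.simple 5 = 36 ∧ chevE6.rank = 6 := by decide +kernel

theorem finRangeE6 : List.finRange chevE6.rank =
    [⟨0, by decide +kernel⟩, ⟨1, by decide +kernel⟩, ⟨2, by decide +kernel⟩, ⟨3, by decide +kernel⟩,
      ⟨4, by decide +kernel⟩, ⟨5, by decide +kernel⟩] := by decide +kernel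

theorem torus_cent {h : G16} (hh : h ∈ S16.Hbar) (e : sig h = nEl0 * h * nEl0) : ∃ k : ℕ, h = tEl ^ k := by
  obtain ⟨v, hv⟩ := hbar_char hh
  have hinv : nEl0⁻¹ = nEl0 := inv_eq_of_mul_eq_one_right nEl0_sq
  have key : ∀ s < chevE6.nroots, (eExp v (chevE6.reflectRoot 0 (rho s)) - 2 * eExp v s) % 15 = 0 := by
    intro s hs
    have h1 := congrArg sig (hv s hs 1)
    rw [map_mul, map_mul, map_inv, e, sig_X hs, sig_X hs, one_mul, mul_one] at h1
    rw [mul_inv_rev, mul_inv_rev, hinv] at h1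
    have hr := rho_lt s hs
    have hu := reflect0_lt _ hr
    have h2 : nEl0 * h * nEl0 * X16 (rho s) 1 * (nEl0 * (h⁻¹ * nEl0)) =
        nEl0 * (h * (nEl0 * X16 (rho s) 1 * nEl0) * h⁻¹) * nEl0 := by group
    rw [h2, nEl0_X hr, hv _ hu, nEl0_X hu, good.root.reflect_reflect (by decide +kernel) hr, mul_one] at h1
    have h3 := X16_inj hr h1
    refine gg_zpow_eq_one ?_
    rw [zpow_sub₀ gg_ne, two_mul, zpow_add₀ gg_ne, ← h3, div_self (zpow_ne_zero _ gg_ne)]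
  have T := torus_facts
  obtain ⟨Tlt, Tcf, Tker, c0, c1, c2, c3, c4, c5, s0, s1, s2, s3, s4, s5, hr6⟩ := T
  set y : ℕ → ℤ := fun j => eExp v (chevE6.simple j) with hy
  have hlin : ∀ l : Fin chevE6.rank, (∑ m : Fin chevE6.rank,
      (([[0, 0, 0, 0, 0, 1], [0, 1, 0, 0, 0, 0], [0, 0, 0, 0, 1, 0], [0, 0, 0, 1, 0, 0], [1, 0, 1, 0, 0, 0],
        [-1, 0, 0, 0, 0, 0]] : List (List ℤ)).getD l.val []).getD m.val 0 * y m.val - 2 * y l.val) % 15 = 0 := by
    intro l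
    have := key _ (good.root.simple_lt l l.2)
    rw [eExp_lin v (Tlt l)] at this
    simpa only [hy, Tcf l] using this
  have h' := fun (j : ℕ) (hj : j < 6) => hlin ⟨j, hr6 ▸ hj⟩
  have e0 := h' 0 (by omega); have e1 := h' 1 (by omega); have e2 := h' 2 (by omega)
  have e3 := h' 3 (by omega); have e4 := h' 4 (by omega); have e5 := h' 5 (by omega)
  simp [Fin.sum_univ_def, finRangeE6] at e0 e1 e2 e3 e4 e5
  have hk : (3 : ℤ) ∣ y 0 + 2 * y 2 + y 4 + 2 * y 5 := by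
    have : y 0 + 2 * y 2 + y 4 + 2 * y 5 = ∑ i : Fin chevE6.rank, v i * (chevE6.cartan i 56 +
        2 * chevE6.cartan i 42 + chevE6.cartan i 37 + 2 * chevE6.cartan i 36) := by
      simp only [hy, eExp, s0, s2, s4, s5, Finset.mul_sum, ← Finset.sum_add_distrib]
      exact Finset.sum_congr rfl fun i _ => by ring
    rw [this]
    exact Finset.dvd_sum fun i _ => Dvd.dvd.mul_left (Tker i) _
  obtain ⟨k, k0, k1, k2, k3, k4, k5⟩ := eqs_solved (y0 := y 0) (y1 := y 1) (y2 := y 2) (y3 := y 3) (y4 := y 4)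
    (y5 := y 5) (by omega) (by omega) (by omega) (by omega) (by omega) (by omega) (Int.emod_eq_zero_of_dvd hk)
  refine ⟨k, ?_⟩
  have hsimple : ∀ l : Fin chevE6.rank,
      (eExp v (chevE6.simple l) - (k : ℤ) * (6 * chiE (chevE6.simple l))) % 15 = 0 := by
    rintro ⟨l, hl⟩
    rw [hr6] at hl
    simp only [hy, s0, s1, s2, s3, s4, s5] at k0 k1 k2 k3 k4 k5
    interval_cases l
    · rw [s0, show 6 * chiE 56 = 12 by omega]; exact k0
    · rw [s1, show 6 * chiE 46 = 0 by omega]; simpa using k1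
    · obtain ⟨q, hq⟩ := Int.dvd_of_emod_eq_zero c2
      rw [s2, show 6 * chiE 42 = 9 + 15 * q by omega, mul_add, ← mul_assoc, mul_comm (k : ℤ) 15, mul_assoc]; omega
    · rw [s3, show 6 * chiE 39 = 0 by omega]; simpa using k3
    · obtain ⟨q, hq⟩ := Int.dvd_of_emod_eq_zero c4
      rw [s4, show 6 * chiE 37 = 3 + 15 * q by omega, mul_add, ← mul_assoc, mul_comm (k : ℤ) 15, mul_assoc]; omega
    · obtain ⟨q, hq⟩ := Int.dvd_of_emod_eq_zero c5
      rw [s5, show 6 * chiE 36 = 9 + 15 * q by omega, mul_add, ← mul_assoc, mul_comm (k : ℤ) 15, mul_assoc]; omega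
  have htk : ∀ (n : ℕ) (s : ℕ), s < chevE6.nroots → ∀ t : F16,
      tEl ^ n * X16 s t * (tEl ^ n)⁻¹ = X16 s (gg ^ ((n : ℤ) * (6 * chiE s)) * t) := by
    intro n
    induction n with
    | zero => intro s _ t; simp
    | succ n ih =>
      intro s hs t
      rw [pow_succ, show tEl ^ n * tEl * X16 s t * (tEl ^ n * tEl)⁻¹ =
          tEl ^ n * (tEl * X16 s t * tEl⁻¹) * (tEl ^ n)⁻¹ by group, tEl_X hs, ih s hs, ← mul_assoc, zeta_zpow,
        ← zpow_add₀ gg_ne]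
      congr 3
      push_cast
      ring
  have hall : ∀ s < chevE6.nroots, (eExp v s - (k : ℤ) * (6 * chiE s)) % 15 = 0 := by
    intro s hs
    rw [chi_lin hs, eExp_lin v hs, eExp_lin _ hs, Finset.mul_sum, ← Finset.sum_sub_distrib]
    refine Int.emod_eq_zero_of_dvd (Finset.dvd_sum fun l _ => ?_)
    rw [← chi_lin (good.root.simple_lt l l.2), mul_left_comm, ← mul_sub]
    exact Dvd.dvd.mul_left (Int.dvd_of_emod_eq_zero (hsimple l)) _
  have h15 : ∀ a : ℤ, a % 15 = 0 → gg ^ a = 1 := fun a ha => by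
    obtain ⟨b, rfl⟩ := Int.dvd_of_emod_eq_zero ha
    rw [zpow_mul, show (15 : ℤ) = ((15 : ℕ) : ℤ) from rfl, zpow_natCast, gg_pow.1, one_zpow]
  have hfix := S16.θ_eq_one_of_fix (rulesE F16) rootTable (h := (tEl ^ k)⁻¹ * h)
    (mul_mem (inv_mem (pow_mem tEl_mem_Hbar k)) hh) fun r hr => ?_
  · have h1 : (tEl ^ k)⁻¹ * h = 1 := hfix
    rwa [inv_mul_eq_one, eq_comm] at h1
  · have h1 := htk k r hr (gg ^ (eExp v r - (k : ℤ) * (6 * chiE r)))
    rw [← zpow_add₀ gg_ne, add_sub_cancel, h15 _ (hall r hr)] at h1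
    have h2 := hv r hr 1
    rw [mul_one] at h2
    show (tEl ^ k)⁻¹ * h * X16 r 1 * ((tEl ^ k)⁻¹ * h)⁻¹ = X16 r 1
    rw [show (tEl ^ k)⁻¹ * h * X16 r 1 * ((tEl ^ k)⁻¹ * h)⁻¹ = (tEl ^ k)⁻¹ * (h * X16 r 1 * h⁻¹) * tEl ^ k by group,
      h2, ← h1]
    group

end Cfsg.Agent.TwE6Five
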