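import Cfsg.Agent.TwE6Five.Defs

/-!
The Weyl group elements commuting with the torus element of order five: they act as products of the reflections in
three roots of the sub-system (owner: helper16).
-/

set_option autoImplicit false

namespace Cfsg.Agent.TwE6Five

open Cfsg Cfsg.Lie Cfsg.Agent.ChevGrp Cfsg.Agent.EInvol

local notation "D" => chevE6

/-- The exponent of the torus element at a root. -/
def chiZ (r : ℕ) : ℤ := chevE6.cartan 0 r + 2 * chevE6.cartan 5 r

/-- The candidates for the image of a fundamental root. -/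
def cands (j : ℕ) : List ℕ := [[4, 6, 8, 11, 23, 31, 34, 38, 41, 44, 49, 51, 53, 56, 68], [0, 1, 2, 24, 25, 32, 39, 46, 47, 69, 70, 71], [5, 10, 13, 14, 17, 19, 26, 36, 42, 43, 50, 55, 59, 62, 64], [0, 1, 2, 24, 25, 32, 39, 46, 47, 69, 70, 71], [3, 15, 18, 20, 22, 27, 30, 33, 37, 40, 48, 60, 63, 65, 67], [5, 10, 13, 14, 17, 19, 26, 36, 42, 43, 50, 55, 59, 62, 64]].getD j []

/-- The images of the fundamental roots under the products of reflections. -/
def table : List (List ℕ × List (Fin 3)) := [
  ([56, 46, 42, 39, 37, 36], []),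
  ([56, 46, 5, 70, 3, 36], [0]),
  ([56, 47, 43, 32, 40, 36], [1]),
  ([56, 25, 42, 47, 37, 36], [2]),
  ([56, 47, 5, 69, 3, 36], [1, 0]),
  ([56, 25, 5, 71, 3, 36], [2, 0]),
  ([56, 71, 43, 1, 40, 36], [0, 1]),
  ([56, 39, 50, 24, 48, 36], [2, 1]),
  ([56, 24, 43, 46, 40, 36], [1, 2]),
  ([56, 71, 42, 2, 37, 36], [0, 1, 0]),
  ([56, 39, 5, 69, 3, 36], [2, 1, 0]),
  ([56, 24, 5, 71, 3, 36], [1, 2, 0]),
  ([56, 70, 50, 0, 48, 36], [2, 0, 1]),
  ([56, 32, 50, 25, 48, 36], [1, 2, 1]),
  ([56, 0, 43, 46, 40, 36], [0, 1, 2]),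
  ([56, 70, 42, 2, 37, 36], [2, 0, 1, 0]),
  ([56, 32, 5, 70, 3, 36], [1, 2, 1, 0]),
  ([56, 0, 42, 47, 37, 36], [0, 1, 2, 0]),
  ([56, 69, 50, 0, 48, 36], [1, 2, 0, 1]),
  ([56, 1, 50, 25, 48, 36], [0, 1, 2, 1]),
  ([56, 69, 43, 1, 40, 36], [1, 2, 0, 1, 0]),
  ([56, 1, 42, 39, 37, 36], [0, 1, 2, 1, 0]),
  ([56, 2, 50, 24, 48, 36], [0, 1, 2, 0, 1]),
  ([56, 2, 43, 32, 40, 36], [0, 1, 2, 0, 1, 0])]

/-- The reflections in 69, 39, 46 as words in simple reflections. -/
def refWord : Fin 3 → List (Fin chevE6.rank) := fun k =>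
  ([[4, 5, 2, 3, 4, 0, 2, 1, 3, 1, 2, 0, 4, 3, 2, 5, 4], [3], [1]].getD k.val []).map
    fun i => if h : i < chevE6.rank then ⟨i, h⟩ else ⟨0, by decide +kernel⟩

/-- The word of a product of reflections. -/
def refProd (l : List (Fin 3)) : List (Fin chevE6.rank) := l.flatMap refWord

set_option maxHeartbeats 0 in
set_option maxRecDepth 100000 in
theorem table_ok : table.all (fun e => (List.finRange chevE6.rank).all fun j =>
    act D (refProd e.2) (chevE6.simple j) == e.1.getD j.val 100) = true := by decide +kernel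

set_option maxHeartbeats 0 in
set_option maxRecDepth 100000 in
theorem cands_ok : ∀ j : Fin chevE6.rank, ∀ r : Fin chevE6.nroots,
    (chiZ r.val - chiZ (chevE6.simple j)) % 5 = 0 → r.val ∈ cands j.val := by decide +kernel

/-- The mixing coefficients. -/
def kv (j : ℕ) : ℤ := [1, 0, 2, 0, 1, 2].getD j 0

/-- The Cartan matrix. -/
def cm (i j : ℕ) : ℤ := chevE6.cartan i (chevE6.simple j)

/-- The check on a tuple of images. -/
def leafB (im : List ℕ) : Bool :=
  !((List.finRange chevE6.rank).all fun i =>
      ((List.range 6).map fun j => kv j * E6.tab.c D (im.getD j 0) i).sum % 3 == kv i.val % 3) ||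
    table.any fun e => e.1 == im

/-- The search for the images. -/
def searchB : Bool :=
  (cands 3).all fun r3 => (cands 1).all fun r1 => !(E6.tab.pr D r1 r3 == cm 1 3) ||
    (cands 2).all fun r2 => !(E6.tab.pr D r2 r3 == cm 2 3 && E6.tab.pr D r2 r1 == cm 2 1) ||
      (cands 4).all fun r4 => !(E6.tab.pr D r4 r3 == cm 4 3 && E6.tab.pr D r4 r1 == cm 4 1 &&
        E6.tab.pr D r4 r2 == cm 4 2) ||
        (cands 0).all fun r0 => !(E6.tab.pr D r0 r3 == cm 0 3 && E6.tab.pr D r0 r1 == cm 0 1 &&
          E6.tab.pr D r0 r2 == cm 0 2 && E6.tab.pr D r0 r4 == cm 0 4) ||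
          (cands 5).all fun r5 => !(E6.tab.pr D r5 r3 == cm 5 3 && E6.tab.pr D r5 r1 == cm 5 1 &&
            E6.tab.pr D r5 r2 == cm 5 2 && E6.tab.pr D r5 r4 == cm 5 4 && E6.tab.pr D r5 r0 == cm 5 0) ||
            leafB [r0, r1, r2, r3, r4, r5]

set_option maxHeartbeats 0 in
set_option maxRecDepth 100000 in
theorem search_ok : searchB = true := by decide +kernel

theorem rank6 : chevE6.rank = 6 := by decide +kernel

/-- A fundamental node. -/
def nd (j : ℕ) (h : j < 6 := by omega) : Fin chevE6.rank := ⟨j, by rw [rank6]; exact h⟩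

theorem finRange6 : List.finRange chevE6.rank =
    [⟨0, by decide +kernel⟩, ⟨1, by decide +kernel⟩, ⟨2, by decide +kernel⟩, ⟨3, by decide +kernel⟩,
      ⟨4, by decide +kernel⟩, ⟨5, by decide +kernel⟩] := by decide +kernel

/-- The images of the fundamental roots determine the action, linearly. -/
theorem cf_act (w : List (Fin chevE6.rank)) {r : ℕ} (hr : r < chevE6.nroots) (l : Fin chevE6.rank) :
    cf D (act D w r) l = ∑ j : Fin chevE6.rank, cf D r j * cf D (act D w (chevE6.simple j)) l := by
  induction w generalizing l with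
  | nil =>
    have e : ∀ j : Fin chevE6.rank, cf D (chevE6.simple j) l = if l = j then 1 else 0 := fun j => by
      have := congrFun (good.root.vec_simple j) l
      rw [good.vec_apply (good.root.simple_lt j j.2), good.len1 _ (good.root.simple_lt j j.2)] at this
      rw [this, Pi.single_apply]; simp
    simp [act_nil, e]
  | cons i w ih =>
    have step : ∀ s < chevE6.nroots, cf D (chevE6.reflectRoot i s) l =
        cf D s l - (∑ m : Fin chevE6.rank, cf D s m * chevE6.cartan i (chevE6.simple m)) *
          cf D (chevE6.simple i) l := fun s hs => by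
      have := congrFun (good.root.vec_reflect i i.2 s hs) l
      rw [Pi.sub_apply, Pi.smul_apply, good.vec_apply hs, good.vec_apply (good.root.reflect_lt i i.2 s hs),
        good.vec_apply (good.root.simple_lt i i.2), smul_eq_mul, good.cartan_sum i hs] at this
      exact this
    rw [act_cons, step _ (good.root.act_lt w hr), ih l]
    simp only [ih, Finset.sum_mul]
    rw [Finset.sum_comm, ← Finset.sum_sub_distrib]
    refine Finset.sum_congr rfl fun j _ => ?_
    rw [act_cons, step _ (good.root.act_lt w (good.root.simple_lt j j.2)), mul_sub, Finset.sum_mul, Finset.mul_sum]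
    simp only [mul_assoc]

/-- The coordinates of the mixed sum modulo three do not move. -/
theorem mix_act (w : List (Fin chevE6.rank)) (l : Fin chevE6.rank) :
    (∑ j : Fin chevE6.rank, kv j * cf D (act D w (chevE6.simple j)) l) % 3 = kv l % 3 := by
  have base : ∀ l : Fin chevE6.rank,
      (∑ j : Fin chevE6.rank, kv j * cf D (chevE6.simple j) l) % 3 = kv l % 3 := by decide +kernel
  have hc : ∀ i : Fin chevE6.rank,
      (3 : ℤ) ∣ ∑ m : Fin chevE6.rank, kv m * chevE6.cartan i (chevE6.simple m) := by decide +kernel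
  induction w generalizing l with
  | nil => simpa [act_nil] using base l
  | cons i w ih =>
    have step : ∀ j : Fin chevE6.rank, cf D (act D (i :: w) (chevE6.simple j)) l =
        cf D (act D w (chevE6.simple j)) l - (∑ m : Fin chevE6.rank, cf D (act D w (chevE6.simple j)) m *
          chevE6.cartan i (chevE6.simple m)) * cf D (chevE6.simple i) l := fun j => by
      have hs := good.root.act_lt w (good.root.simple_lt j j.2)
      have := congrFun (good.root.vec_reflect i i.2 _ hs) l
      rw [Pi.sub_apply, Pi.smul_apply, good.vec_apply hs, good.vec_apply (good.root.reflect_lt i i.2 _ hs),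
        good.vec_apply (good.root.simple_lt i i.2), smul_eq_mul, good.cartan_sum i hs] at this
      exact this
    set S : Fin chevE6.rank → ℤ := fun m => ∑ j : Fin chevE6.rank, kv j * cf D (act D w (chevE6.simple j)) m
    have e : (∑ j : Fin chevE6.rank, kv j * cf D (act D (i :: w) (chevE6.simple j)) l) =
        S l - (∑ m : Fin chevE6.rank, S m * chevE6.cartan i (chevE6.simple m)) * cf D (chevE6.simple i) l := by
      simp only [step, mul_sub, Finset.sum_sub_distrib, S, Finset.sum_mul, Finset.mul_sum]
      congr 1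
      rw [Finset.sum_comm]
      refine Finset.sum_congr rfl fun m _ => Finset.sum_congr rfl fun j _ => by ring
    have h3 : (3 : ℤ) ∣ ∑ m : Fin chevE6.rank, S m * chevE6.cartan i (chevE6.simple m) := by
      have h1 : ∀ m, (3 : ℤ) ∣ S m - kv m := fun m => Int.dvd_of_emod_eq_zero
        (Int.emod_eq_emod_iff_emod_sub_eq_zero.1 (ih m))
      have h2 : (3 : ℤ) ∣ ∑ m : Fin chevE6.rank, (S m - kv m) * chevE6.cartan i (chevE6.simple m) :=
        Finset.dvd_sum fun m _ => Dvd.dvd.mul_right (h1 m) _
      have := dvd_add h2 (hc i)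
      rwa [← Finset.sum_add_distrib, Finset.sum_congr rfl fun m _ =>
        show (S m - kv m) * chevE6.cartan i (chevE6.simple m) + kv m * chevE6.cartan i (chevE6.simple m) =
          S m * chevE6.cartan i (chevE6.simple m) by ring] at this
    rw [e, Int.sub_emod, Int.emod_eq_zero_of_dvd (Dvd.dvd.mul_right h3 _), sub_zero, Int.emod_emod]
    exact ih l

/-- A Weyl element commuting with the torus element of order five acts as a product of three reflections of the
sub-system. -/
theorem weyl_cent (w : List (Fin chevE6.rank))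
    (h : ∀ j : Fin chevE6.rank, (chiZ (act D w (chevE6.simple j)) - chiZ (chevE6.simple j)) % 5 = 0) :
    ∃ l : List (Fin 3), ∀ r < chevE6.nroots, act D w r = act D (refProd l) r := by
  set a : ℕ → ℕ := fun j => if hj : j < 6 then act D w (chevE6.simple (nd j hj)) else 0 with ha
  have aj : ∀ j : Fin chevE6.rank, a j.val = act D w (chevE6.simple j) := fun j => by
    rw [ha]; simp only
    rw [dif_pos (rank6 ▸ j.2)]
    rfl
  have hlt : ∀ j (hj : j < 6), a j < chevE6.nroots := fun j hj => by
    rw [show j = (nd j hj).val from rfl, aj]; exact good.root.act_lt w (good.root.simple_lt _ (nd j hj).2)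
  have hc : ∀ j (hj : j < 6), a j ∈ cands j := fun j hj => by
    have := cands_ok (nd j hj) ⟨a j, hlt j hj⟩ (by show (chiZ (a j) - _) % 5 = 0; rw [show a j = _ from aj (nd j hj)]; exact h _)
    exact this
  have hp : ∀ i j (hi : i < 6) (hj : j < 6), E6.tab.pr D (a i) (a j) = cm i j := fun i j hi hj => by
    rw [Tab.pr_eq E6.tabValid (hlt i hi) (hlt j hj), show a i = _ from aj (nd i hi), show a j = _ from aj (nd j hj),
      good.pr_act w (good.root.simple_lt _ (nd i hi).2) (good.root.simple_lt _ (nd j hj).2), good.pr_simple (nd i hi)]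
    rfl
  have hs := search_ok
  simp only [searchB, List.all_eq_true] at hs
  have h1 := hs _ (hc 3 (by omega)) _ (hc 1 (by omega))
  simp only [hp 1 3 (by omega) (by omega), beq_self_eq_true, Bool.not_true, Bool.false_or, List.all_eq_true] at h1
  have h2 := h1 _ (hc 2 (by omega))
  simp only [hp 2 3 (by omega) (by omega), hp 2 1 (by omega) (by omega), beq_self_eq_true, Bool.and_self,
    Bool.not_true, Bool.false_or, List.all_eq_true] at h2
  have h3 := h2 _ (hc 4 (by omega))
  simp only [hp 4 3 (by omega) (by omega), hp 4 1 (by omega) (by omega), hp 4 2 (by omega) (by omega),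
    beq_self_eq_true, Bool.and_self, Bool.not_true, Bool.false_or, List.all_eq_true] at h3
  have h4 := h3 _ (hc 0 (by omega))
  simp only [hp 0 3 (by omega) (by omega), hp 0 1 (by omega) (by omega), hp 0 2 (by omega) (by omega),
    hp 0 4 (by omega) (by omega), beq_self_eq_true, Bool.and_self, Bool.not_true, Bool.false_or,
    List.all_eq_true] at h4
  have h5 := h4 _ (hc 5 (by omega))
  simp only [hp 5 3 (by omega) (by omega), hp 5 1 (by omega) (by omega), hp 5 2 (by omega) (by omega),
    hp 5 4 (by omega) (by omega), hp 5 0 (by omega) (by omega), beq_self_eq_true, Bool.and_self, Bool.not_true,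
    Bool.false_or, leafB, Bool.or_eq_true, Bool.not_eq_eq_eq_not, List.any_eq_true, beq_iff_eq] at h5
  rcases h5 with h5 | ⟨e, he, hee⟩
  · exfalso
    rw [List.all_eq_false] at h5
    obtain ⟨l, -, hl⟩ := h5
    apply hl
    rw [beq_iff_eq]
    have := mix_act w l
    rw [Fin.sum_univ_def] at this
    rw [← this]
    congr 1
    rw [finRange6]
    simp [List.range_succ, Tab.c_eq E6.tabValid (hlt _ _), ← aj, nd]
  · refine ⟨e.2, fun r hr => ?_⟩
    have ht := table_ok
    simp only [List.all_eq_true, beq_iff_eq] at ht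
    have hsim : ∀ j : Fin chevE6.rank, act D w (chevE6.simple j) = act D (refProd e.2) (chevE6.simple j) := fun j => by
      rw [ht e he j (List.mem_finRange j), hee, ← aj]
      obtain ⟨j, hj⟩ := j
      rw [rank6] at hj
      interval_cases j <;> rfl
    refine good.root.vec_inj _ (good.root.act_lt w hr) _ (good.root.act_lt _ hr) (funext fun l => ?_)
    rw [good.vec_apply (good.root.act_lt w hr), good.vec_apply (good.root.act_lt _ hr), cf_act w hr, cf_act _ hr]
    exact Finset.sum_congr rfl fun j _ => by rw [hsim]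

end Cfsg.Agent.TwE6Five
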