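import Cfsg.Agent.TwE6Five.Setup
import Cfsg.Agent.TwE6Five.Weyl
import Cfsg.Agent.TwE6Five.Torus

/-!
The centraliser in the twisted group of the element of order five is the product of the group it generates and the
sub-system group over two elements (owner: helper16).
-/

set_option autoImplicit false

namespace Cfsg.Agent.TwE6Five

open Cfsg Cfsg.Lie Cfsg.Agent.ChevGrp Cfsg.Agent.EInvol

/-- The sub-system group over two elements, among the matrices over sixteen. -/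
noncomputable def L16 : Subgroup G16 := Subgroup.closure {g | ∃ r ∈ phiT, g = X16 r 1}

theorem L16_eq : L16 = L2.map iota := by
  rw [L2, MonoidHom.map_closure, L16]
  congr 1
  ext g
  simp only [Set.mem_image, Set.mem_setOf_eq]
  constructor
  · rintro ⟨r, hr, rfl⟩
    exact ⟨X4 r 1, ⟨r, hr, rfl⟩, by rw [iota_X, map_one]⟩
  · rintro ⟨_, ⟨r, hr, rfl⟩, rfl⟩
    exact ⟨r, hr, by rw [iota_X, map_one]⟩

theorem phiT_facts : ∀ r ∈ phiT, r < chevE6.nroots ∧ chevE6.neg r ∈ phiT ∧ rho r = r ∧ chevE6.reflectRoot 0 r = r ∧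
    chiE r = 0 ∧ ∀ a ∈ [56, 15, 36, 35], a < chevE6.nroots ∧ pr chevE6 a r = 0 := by decide +kernel

theorem phiT_of_chi : ∀ r < chevE6.nroots, chiE r % 5 = 0 → r ∈ phiT := by decide +kernel

theorem rho_neg : ∀ r < chevE6.nroots, rho (chevE6.neg r) = chevE6.neg (rho r) := by decide +kernel

/-- Root elements of the sub-system commute with both rank one groups. -/
theorem commute_phi_X {r : ℕ} (hr : r ∈ phiT) (a : ℕ) (ha : a ∈ [56, 36]) (ha' : a < chevE6.nroots) (g : SL2)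
    (t : F16) : Commute (phi a ha' g) (X16 r t) := by
  obtain ⟨hlt, -, -, -, -, hp⟩ := phiT_facts r hr
  have hneg : chevE6.neg a ∈ [56, 15, 36, 35] ∧ a ∈ [56, 15, 36, 35] := by
    simp only [List.mem_cons, List.not_mem_nil, or_false] at ha
    rcases ha with rfl | rfl
    · rw [rho_small.2.2.2.2.1]; simp
    · rw [rho_small.2.2.2.2.2.1]; simp
  have hg : phi a ha' g ∈ Subgroup.closure (Set.range (Chev.validE6.xU (F := F16) ha') ∪
      Set.range (Chev.validE6.xU (F := F16) (Chev.validE6.neg_lt ha'))) := by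
    rw [← Chev.RankOne.hom_range (Chev.validE6.rankOne ha')]; exact ⟨g, rfl⟩
  refine Subgroup.closure_induction (p := fun x _ => Commute x (X16 r t)) (fun x hx => ?_)
    (Commute.one_left _) (fun _ _ _ _ => Commute.mul_left) (fun _ _ => Commute.inv_left) hg
  rcases hx with ⟨u, rfl⟩ | ⟨u, rfl⟩ <;> rw [xU_eq]
  · exact EInvol.X_commute (rulesE F16) good (hp a hneg.2).1 hlt (le_of_eq (hp a hneg.2).2.symm) u t
  · exact EInvol.X_commute (rulesE F16) good (hp _ hneg.1).1 hlt (le_of_eq (hp _ hneg.1).2.symm) u t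

theorem L16_commute {l : G16} (hl : l ∈ L16) (A B : SL2) : Commute (phi 56 h56 A * phi 36 h36 B) l := by
  refine Subgroup.closure_induction (p := fun l _ => Commute (phi 56 h56 A * phi 36 h36 B) l) ?_
    (Commute.one_right _) (fun _ _ _ _ => Commute.mul_right) (fun _ _ => Commute.inv_right) hl
  rintro _ ⟨r, hr, rfl⟩
  exact (commute_phi_X hr 56 (by simp) h56 A 1).mul_left (commute_phi_X hr 36 (by simp) h36 B 1)

theorem L16_fix {l : G16} (hl : l ∈ L16) : sig l = l ∧ nEl0 * l * nEl0 = l := by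
  refine ⟨?_, ?_⟩
  · refine (show L16 ≤ MonoidHom.eqLocus sig (MonoidHom.id G16) from (Subgroup.closure_le _).2 ?_) hl
    rintro _ ⟨r, hr, rfl⟩
    obtain ⟨hlt, -, h1, -⟩ := phiT_facts r hr
    show sig (X16 r 1) = X16 r 1
    rw [sig_X hlt, h1, mul_one]
  · have h := L16_commute hl wS 1
    rw [map_one, mul_one, phi_wS_eq] at h
    rw [h.eq, mul_assoc, nEl0_sq, mul_one]

theorem tEl_commute {l : G16} (hl : l ∈ L16) : Commute tEl l := L16_commute hl _ _

theorem g0_commute {l : G16} (hl : l ∈ L16) : Commute g0 l := L16_commute hl _ _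

theorem nEl_mem_L16 {r : ℕ} (hr : r ∈ phiT) : S16.nEl r 1 ∈ L16 := by
  have e : S16.nEl r 1 = X16 r 1 * X16 (chevE6.neg r) 1 * X16 r 1 := by
    simp only [Sys.nEl, inv_one, CharTwo.neg_eq]
    rfl
  rw [e]
  exact mul_mem (mul_mem (Subgroup.subset_closure ⟨r, hr, rfl⟩)
    (Subgroup.subset_closure ⟨_, (phiT_facts r hr).2.1, rfl⟩)) (Subgroup.subset_closure ⟨r, hr, rfl⟩)

theorem refWord_facts : refWord 1 = [⟨3, by decide +kernel⟩] ∧ refWord 2 = [⟨1, by decide +kernel⟩] ∧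
    (∃ u : List (Fin chevE6.rank), refWord 0 = u ++ [⟨3, by decide +kernel⟩] ++ u.reverse ∧
      act chevE6 u 39 = 69 ∧ act chevE6 u (chevE6.neg 39) = chevE6.neg 69) ∧
    chevE6.simple 3 = 39 ∧ chevE6.simple 1 = 46 ∧ 39 < chevE6.nroots ∧ chevE6.neg 39 < chevE6.nroots := by
  refine ⟨by decide +kernel, by decide +kernel, ⟨[⟨4, by decide +kernel⟩, ⟨5, by decide +kernel⟩, ⟨2, by decide +kernel⟩,
    ⟨3, by decide +kernel⟩, ⟨4, by decide +kernel⟩, ⟨0, by decide +kernel⟩, ⟨2, by decide +kernel⟩,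
    ⟨1, by decide +kernel⟩], by decide +kernel, by decide +kernel, by decide +kernel⟩, by decide +kernel,
    by decide +kernel, by decide +kernel, by decide +kernel⟩

/-- Each product of the three reflections is induced by an element of the sub-system group. -/
theorem refProd_lift (l : List (Fin 3)) : ∃ c ∈ S16.Hbar, c * S16.nW (refProd l) ∈ L16 := by
  obtain ⟨e1, e2, ⟨u, e0, hu, hu'⟩, s3, s1, h39, h39'⟩ := refWord_facts
  have gen : ∀ k : Fin 3, ∃ c ∈ S16.Hbar, c * S16.nW (refWord k) ∈ L16 := by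
    intro k
    fin_cases k
    · refine ⟨?_, ?_, ?_⟩
      · exact S16.nW (refWord 0) * (S16.nW u * S16.nW u.reverse)⁻¹ * (S16.nW (refWord 0))⁻¹
      · exact S16.nW_conj_Hbar (rulesE F16) rootTable _ (inv_mem (S16.nW_reverse_mem (rulesE F16) rootTable u))
      · have hc : S16.nW (refWord 0) * (S16.nW u * S16.nW u.reverse)⁻¹ * (S16.nW (refWord 0))⁻¹ *
            S16.nW (refWord 0) = S16.nW u * S16.nI ⟨3, by decide +kernel⟩ * (S16.nW u)⁻¹ := by
          rw [e0, Sys.nW_append, Sys.nW_append, Sys.nW_singleton]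
          group
        show _ * S16.nW (refWord 0) ∈ L16
        rw [hc]
        have hn : S16.nW u * S16.nI ⟨3, by decide +kernel⟩ * (S16.nW u)⁻¹ = S16.nEl 69 1 := by
          rw [Sys.nI, show chevE6.simple ((⟨3, by decide +kernel⟩ : Fin chevE6.rank) : ℕ) = 39 from s3]
          simp only [Sys.nEl, inv_one, CharTwo.neg_eq]
          have a1 := EInvol.nW_conj (rulesE F16) good u 39 h39 (1 : F16)
          have a2 := EInvol.nW_conj (rulesE F16) good u _ h39' (1 : F16)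
          rw [hu] at a1
          rw [hu'] at a2
          show S16.nW u * (X16 39 1 * X16 (chevE6.neg 39) 1 * X16 39 1) * (S16.nW u)⁻¹ =
            X16 69 1 * X16 (chevE6.neg 69) 1 * X16 69 1
          rw [← show S16.nW u * X16 39 1 * (S16.nW u)⁻¹ = X16 69 1 from a1,
            ← show S16.nW u * X16 (chevE6.neg 39) 1 * (S16.nW u)⁻¹ = X16 (chevE6.neg 69) 1 from a2]
          group
        rw [hn]
        exact nEl_mem_L16 (by simp [phiT])
    · refine ⟨1, one_mem _, ?_⟩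
      show (1 : G16) * S16.nW (refWord 1) ∈ L16
      rw [e1, Sys.nW_singleton, one_mul, Sys.nI,
        show chevE6.simple ((⟨3, by decide +kernel⟩ : Fin chevE6.rank) : ℕ) = 39 from s3]
      exact nEl_mem_L16 (by simp [phiT])
    · refine ⟨1, one_mem _, ?_⟩
      show (1 : G16) * S16.nW (refWord 2) ∈ L16
      rw [e2, Sys.nW_singleton, one_mul, Sys.nI,
        show chevE6.simple ((⟨1, by decide +kernel⟩ : Fin chevE6.rank) : ℕ) = 46 from s1]
      exact nEl_mem_L16 (by simp [phiT])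
  induction l with
  | nil => exact ⟨1, one_mem _, by simp [refProd, Sys.nW_nil, one_mem]⟩
  | cons k l ih =>
    obtain ⟨c, hc, h⟩ := gen k
    obtain ⟨d, hd, h'⟩ := ih
    refine ⟨c * (S16.nW (refWord k) * d * (S16.nW (refWord k))⁻¹),
      mul_mem hc (S16.nW_conj_Hbar (rulesE F16) rootTable _ hd), ?_⟩
    rw [refProd, List.flatMap_cons, Sys.nW_append, ← refProd]
    have := mul_mem h h'
    simpa [mul_assoc] using this

theorem Hbar_comm {a b : G16} (ha : a ∈ S16.Hbar) (hb : b ∈ S16.Hbar) : a * b = b * a := by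
  obtain ⟨v, hv⟩ := hbar_char ha
  obtain ⟨w, hw⟩ := hbar_char hb
  have h := S16.θ_eq_one_of_fix (rulesE F16) rootTable (h := (b * a)⁻¹ * (a * b))
    (mul_mem (inv_mem (mul_mem hb ha)) (mul_mem ha hb)) fun r hr => by
    show (b * a)⁻¹ * (a * b) * X16 r 1 * ((b * a)⁻¹ * (a * b))⁻¹ = X16 r 1
    have e : a * (b * X16 r 1 * b⁻¹) * a⁻¹ = b * (a * X16 r 1 * a⁻¹) * b⁻¹ := by
      rw [hw r hr, hv r hr, hv r hr, hw r hr, mul_left_comm]
    calc (b * a)⁻¹ * (a * b) * X16 r 1 * ((b * a)⁻¹ * (a * b))⁻¹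
        = (b * a)⁻¹ * (a * (b * X16 r 1 * b⁻¹) * a⁻¹) * (b * a) := by group
      _ = (b * a)⁻¹ * (b * (a * X16 r 1 * a⁻¹) * b⁻¹) * (b * a) := by rw [e]
      _ = _ := by group
  have h1 : (b * a)⁻¹ * (a * b) = 1 := h
  rwa [inv_mul_eq_one, eq_comm] at h1

theorem zeta_zpow_inj {a b : ℤ} (h : zeta ^ a = zeta ^ b) : (a - b) % 5 = 0 := by
  rw [zeta_zpow, zeta_zpow] at h
  have := gg_zpow_eq_one (a := 6 * a - 6 * b) (by rw [zpow_sub₀ gg_ne, h, div_self (zpow_ne_zero _ gg_ne)])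
  omega

theorem sig_Hbar {h : G16} (hh : h ∈ S16.Hbar) : sig h ∈ S16.Hbar := by
  refine (show S16.Hbar ≤ S16.Hbar.comap sig from (Subgroup.closure_le _).2 ?_) hh
  rintro _ ⟨i, c, hc, rfl⟩
  have hp := good.root.simple_lt i i.2
  have hn := good.root.neg_lt _ hp
  rw [SetLike.mem_coe, Subgroup.mem_comap]
  have e : sig (S16.hEl (chevE6.simple i) c) = S16.hEl (rho (chevE6.simple i)) (c * c) := by
    have hx : ∀ (r : ℕ) (t : F16), S16.x r t = X16 r t := fun _ _ => rfl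
    simp only [Sys.hEl, Sys.nEl, hx, map_mul, sig_X hp, sig_X hn, rho_neg _ hp]
    simp [CharTwo.neg_eq]
  rw [e]
  exact S16.hEl_mem_Hbar (rulesE F16) rootTable (rho_lt _ hp) (mul_ne_zero hc hc)

/-- A unipotent element fixed by the torus element is supported on the sub-system. -/
theorem supp_of_fix {T : Set ℕ} (hT : UClosed chevE6 Chev.lenCertE6.len (htHom chevE6) T) {u : G16}
    (hu : u ∈ S16.US T) (e : tEl * u * tEl⁻¹ = u) :
    ∃ L c, Enum T L ∧ u = S16.P L c ∧ ∀ r ∈ L, c r ≠ 0 → r ∈ phiT := by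
  obtain ⟨L, hL⟩ := hT.exists_enum
  obtain ⟨c, rfl⟩ := S16.exists_coef rootTable hT hL hu
  refine ⟨L, c, hL, rfl, fun r hr hne => ?_⟩
  have hlt : ∀ r ∈ L, r < chevE6.nroots := fun r h => hT.lt r ((hL.2 r).1 h)
  have e2 : S16.P L (fun r => zeta ^ chiE r * c r) = S16.P L c := by
    conv_rhs => rw [← e]
    rw [Sys.P, Sys.P, ← MulAut.conj_apply, map_list_prod, List.map_map]
    exact congrArg List.prod (List.map_congr_left fun s hs => (tEl_X (hlt s hs) _).symm)
  have h := S16.coef_unique rootTable hT hL (congrArg S16.θ e2) r ((hL.2 r).1 hr)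
  have hz : zeta ^ chiE r = zeta ^ (0 : ℤ) := by
    rw [zpow_zero]
    exact mul_right_cancel₀ hne (by rw [h, one_mul])
  have := zeta_zpow_inj hz
  exact phiT_of_chi r (hlt r hr) (by omega)

theorem sig_supp {T : Set ℕ} (hT : UClosed chevE6 Chev.lenCertE6.len (htHom chevE6) T) {L : List ℕ} {c : ℕ → F16}
    (hL : Enum T L) (hs : ∀ r ∈ L, c r ≠ 0 → r ∈ phiT) :
    sig (S16.P L c) = S16.P L (fun r => c r * c r) ∧ nEl0 * S16.P L c * nEl0 = S16.P L c ∧
      S16.P L (fun r => c r * c r) ∈ S16.US T := by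
  have hlt : ∀ r ∈ L, r < chevE6.nroots := fun r h => hT.lt r ((hL.2 r).1 h)
  have hzero : ∀ r < chevE6.nroots, X16 r 0 = 1 := fun r hr => S16.x_zero hr
  refine ⟨?_, ?_, S16.P_mem hlt fun r hr _ => (hL.2 r).1 hr⟩
  · rw [Sys.P, Sys.P, map_list_prod, List.map_map]
    refine congrArg List.prod (List.map_congr_left fun r hr => ?_)
    show sig (X16 r (c r)) = X16 r (c r * c r)
    rw [sig_X (hlt r hr)]
    by_cases h0 : c r = 0
    · rw [h0, mul_zero, hzero _ (rho_lt r (hlt r hr)), hzero _ (hlt r hr)]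
    · rw [(phiT_facts r (hs r hr h0)).2.2.1]
  · have hinv : nEl0⁻¹ = nEl0 := inv_eq_of_mul_eq_one_right nEl0_sq
    conv_lhs => arg 2; rw [← hinv]
    rw [Sys.P, ← MulAut.conj_apply, map_list_prod, List.map_map]
    refine congrArg List.prod (List.map_congr_left fun r hr => ?_)
    show nEl0 * X16 r (c r) * nEl0⁻¹ = X16 r (c r)
    rw [hinv, nEl0_X (hlt r hr)]
    by_cases h0 : c r = 0
    · rw [h0, hzero _ (reflect0_lt r (hlt r hr)), hzero _ (hlt r hr)]
    · rw [(phiT_facts r (hs r hr h0)).2.2.2.1]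

theorem P_mem_L16 {L : List ℕ} {c : ℕ → F16} (hlt : ∀ r ∈ L, r < chevE6.nroots)
    (hs : ∀ r ∈ L, c r ≠ 0 → r ∈ phiT) (h2 : ∀ r ∈ L, c r * c r = c r) : S16.P L c ∈ L16 := by
  refine list_prod_mem fun g hg => ?_
  obtain ⟨r, hr, rfl⟩ := List.mem_map.1 hg
  by_cases h0 : c r = 0
  · rw [h0, S16.x_zero (hlt r hr)]; exact one_mem _
  · have h1 : c r = 1 := mul_right_cancel₀ h0 (by rw [h2 r hr, one_mul])
    rw [h1]
    exact Subgroup.subset_closure ⟨r, hs r hr h0, rfl⟩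

/-- The elements commuting with the torus element on which the endomorphism is the conjugation by the involution. -/
theorem cent_struct {z : G16} (hz : z ∈ S16.Gbar) (hc : tEl * z = z * tEl) (hs : sig z = nEl0 * z * nEl0) :
    ∃ k : ℕ, ∃ l ∈ L16, z = tEl ^ k * l := by
  have hS := rulesE F16
  obtain ⟨b, hb, w, -, v, hv, hzeq⟩ := S16.mem_NF hS rootTable hz
  obtain ⟨u, hu, h, hh, rfl⟩ := (S16.mem_Bbar hS rootTable).1 hb
  have ht := tEl_mem_Hbar
  have hT := RootTable.posSet_closed (rootTable)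
  have hTi := RootTable.inv_closed rootTable w
  have hu' : tEl * u * tEl⁻¹ ∈ S16.Ubar :=
    (Subgroup.mem_normalizer_iff.1 (S16.Hbar_le_normalizer_Ubar hS rootTable ht) u).1 hu
  have hv' : tEl * v * tEl⁻¹ ∈ S16.US (invSet chevE6 w) :=
    (Subgroup.mem_normalizer_iff.1 (S16.Hbar_le_normalizer_US hS rootTable (fun r hr => hr.1.1) ht) v).1 hv
  set k : G16 := tEl * (S16.nW w * tEl⁻¹ * (S16.nW w)⁻¹) with hk
  have hkH : k ∈ S16.Hbar := mul_mem ht (S16.nW_conj_Hbar hS rootTable w (inv_mem ht))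
  have eh : tEl * h * tEl⁻¹ = h := by rw [Hbar_comm ht hh, mul_inv_cancel_right]
  have e1 : (tEl * u * tEl⁻¹) * (h * k) * S16.nW w * (tEl * v * tEl⁻¹) = u * h * S16.nW w * v := by
    rw [← hzeq, hk, ← eh]
    have : tEl * z * tEl⁻¹ = z := by rw [hc, mul_inv_cancel_right]
    conv_rhs => rw [← this, hzeq]
    group
  have hU := S16.bruhat_unique hS rootTable
    (mul_mem (S16.Ubar_le_Bbar hu') (S16.Hbar_le_Bbar (mul_mem hh hkH)))
    (mul_mem (S16.Ubar_le_Bbar hu) (S16.Hbar_le_Bbar hh)) hv' hv e1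
  obtain ⟨eb, ev⟩ := hU.2 rfl
  obtain ⟨eu, ehk⟩ := S16.Bbar_decomp_unique hS rootTable hu' hu (mul_mem hh hkH) hh eb
  have hk1 : k = 1 := mul_left_cancel (ehk.trans (mul_one h).symm)
  have hwt : S16.nW w * tEl = tEl * S16.nW w := by
    have h1 : tEl * (S16.nW w * tEl⁻¹ * (S16.nW w)⁻¹) = 1 := hk1
    calc S16.nW w * tEl = tEl * (S16.nW w * tEl⁻¹ * (S16.nW w)⁻¹) * (S16.nW w * tEl) := by rw [h1, one_mul]
      _ = _ := by group
  -- the Weyl element
  obtain ⟨l, hl⟩ := weyl_cent w fun j => by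
    have hp := good.root.simple_lt j j.2
    have ha := good.root.act_lt w hp
    have h1 := tEl_X hp (1 : F16)
    have h2 := congrArg (fun x => S16.nW w * x * (S16.nW w)⁻¹) h1
    simp only [mul_one] at h2
    rw [show S16.nW w * (tEl * X16 (chevE6.simple j) 1 * tEl⁻¹) * (S16.nW w)⁻¹ =
        (S16.nW w * tEl) * X16 (chevE6.simple j) 1 * (S16.nW w * tEl)⁻¹ by group, hwt,
      show tEl * S16.nW w * X16 (chevE6.simple j) 1 * (tEl * S16.nW w)⁻¹ =
        tEl * (S16.nW w * X16 (chevE6.simple j) 1 * (S16.nW w)⁻¹) * tEl⁻¹ by group,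
      EInvol.nW_conj hS good w _ hp, EInvol.nW_conj hS good w _ hp] at h2
    rw [show tEl * X chevE6 (act chevE6 w (chevE6.simple j)) (1 : F16) * tEl⁻¹ =
        X16 (act chevE6 w (chevE6.simple j)) (zeta ^ chiE (act chevE6 w (chevE6.simple j)) * 1) from tEl_X ha 1,
      mul_one] at h2
    exact zeta_zpow_inj (X16_inj ha h2)
  obtain ⟨c0, hc0, hm⟩ := refProd_lift l
  obtain ⟨c1, hc1, ew⟩ := S16.nW_congr hS rootTable hl
  set m : G16 := c0 * S16.nW (refProd l) with hmdef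
  set h3 : G16 := h * (c1 * c0⁻¹) with h3def
  have hh3 : h3 ∈ S16.Hbar := mul_mem hh (mul_mem hc1 (inv_mem hc0))
  have ez : z = u * h3 * m * v := by rw [hzeq, ew, h3def, hmdef]; group
  -- the coefficients
  obtain ⟨Lu, cu, hLu, rfl, su⟩ := supp_of_fix hT hu eu
  obtain ⟨Lv, cv, hLv, rfl, sv⟩ := supp_of_fix hTi hv ev
  obtain ⟨sgu, nu, hu2⟩ := sig_supp hT hLu su
  obtain ⟨sgv, nv, hv2⟩ := sig_supp hTi hLv sv
  obtain ⟨sm, nm⟩ := L16_fix hm
  have hinv : nEl0⁻¹ = nEl0 := inv_eq_of_mul_eq_one_right nEl0_sq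
  have hnh : nEl0 * h3 * nEl0 ∈ S16.Hbar := by
    have := S16.nW_conj_Hbar hS rootTable [node0] hh3
    rw [Sys.nW_singleton] at this
    rwa [show (S16.nI node0)⁻¹ = S16.nI node0 from hinv] at this
  have e3 : S16.P Lu (fun r => cu r * cu r) * (sig h3 * c0) * S16.nW (refProd l) *
      S16.P Lv (fun r => cv r * cv r) =
      S16.P Lu cu * (nEl0 * h3 * nEl0 * c0) * S16.nW (refProd l) * S16.P Lv cv := by
    have h1 : sig z = S16.P Lu (fun r => cu r * cu r) * sig h3 * m * S16.P Lv (fun r => cv r * cv r) := by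
      rw [ez, map_mul, map_mul, map_mul, sgu, sgv, sm]
    have h2 : nEl0 * z * nEl0 = S16.P Lu cu * (nEl0 * h3 * nEl0) * m * S16.P Lv cv := by
      calc nEl0 * z * nEl0 = (nEl0 * S16.P Lu cu * nEl0⁻¹) * (nEl0 * h3 * nEl0⁻¹) * (nEl0 * m * nEl0⁻¹) *
            (nEl0 * S16.P Lv cv * nEl0) := by rw [ez]; group
        _ = _ := by rw [hinv, nu, nv, nm]
    rw [hs, h2, hmdef] at h1
    simp only [mul_assoc] at h1 ⊢
    exact h1.symm
  have hinvS : invSet chevE6 w = invSet chevE6 (refProd l) := invSet_congr chevE6 hl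
  have hU2 := S16.bruhat_unique hS rootTable
    (mul_mem (S16.Ubar_le_Bbar hu2) (S16.Hbar_le_Bbar (mul_mem (sig_Hbar hh3) hc0)))
    (mul_mem (S16.Ubar_le_Bbar hu) (S16.Hbar_le_Bbar (mul_mem hnh hc0))) (hinvS ▸ hv2) (hinvS ▸ hv) e3
  obtain ⟨eb2, ev2⟩ := hU2.2 rfl
  obtain ⟨eu2, eh2⟩ := S16.Bbar_decomp_unique hS rootTable hu2 hu (mul_mem (sig_Hbar hh3) hc0)
    (mul_mem hnh hc0) eb2
  obtain ⟨n, hn⟩ := torus_cent hh3 (mul_right_cancel eh2)
  have su2 := fun r hr => S16.coef_unique rootTable hT hLu (congrArg S16.θ eu2) r ((hLu.2 r).1 hr)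
  have sv2 := fun r hr => S16.coef_unique rootTable hTi hLv (congrArg S16.θ ev2) r ((hLv.2 r).1 hr)
  have huL := P_mem_L16 (fun r hr => hT.lt r ((hLu.2 r).1 hr)) su su2
  have hvL := P_mem_L16 (fun r hr => hTi.lt r ((hLv.2 r).1 hr)) sv sv2
  refine ⟨n, S16.P Lu cu * m * S16.P Lv cv, mul_mem (mul_mem huL hm) hvL, ?_⟩
  rw [ez, hn, ← ((tEl_commute huL).pow_left n).eq]
  simp only [mul_assoc]

/-- The centraliser of the element of order five. -/
theorem cent_x {y : G4} (hy : y ∈ Tw4) (hc : y * xEl = xEl * y) : ∃ k : ℕ, ∃ l ∈ L2, y = xEl ^ k * l := by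
  have hinv : nEl0⁻¹ = nEl0 := inv_eq_of_mul_eq_one_right nEl0_sq
  have hg : g0⁻¹ * iota y * g0 ∈ S16.Gbar :=
    mul_mem (mul_mem (inv_mem g0_mem) (iota_mem_Gbar hy)) g0_mem
  have ht : tEl = g0⁻¹ * iota xEl * g0 := by rw [mul_assoc, xEl_conj, inv_mul_cancel_left]
  have h1 : tEl * (g0⁻¹ * iota y * g0) = g0⁻¹ * iota y * g0 * tEl := by
    rw [ht]
    have e : iota xEl * iota y = iota y * iota xEl := by rw [← map_mul, ← map_mul, hc]
    calc g0⁻¹ * iota xEl * g0 * (g0⁻¹ * iota y * g0) = g0⁻¹ * (iota xEl * iota y) * g0 := by group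
      _ = g0⁻¹ * (iota y * iota xEl) * g0 := by rw [e]
      _ = _ := by group
  have h2 : sig (g0⁻¹ * iota y * g0) = nEl0 * (g0⁻¹ * iota y * g0) * nEl0 := by
    rw [map_mul, map_mul, map_inv, sig_g0, sig_iota hy, mul_inv_rev, hinv]
    simp only [mul_assoc]
  obtain ⟨k, l, hl, e⟩ := cent_struct hg h1 h2
  obtain ⟨l2, hl2, rfl⟩ := (show l ∈ L2.map iota from L16_eq ▸ hl)
  refine ⟨k, l2, hl2, iota_injective ?_⟩
  rw [map_mul, map_pow]
  have hp : iota xEl ^ k * g0 = g0 * tEl ^ k := (show SemiconjBy g0 tEl (iota xEl) from xEl_conj.symm).pow_right k |>.eq.symm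
  calc iota y = g0 * (g0⁻¹ * iota y * g0) * g0⁻¹ := by group
    _ = g0 * tEl ^ k * (iota l2 * g0⁻¹) := by rw [e]; group
    _ = iota xEl ^ k * g0 * (g0⁻¹ * iota l2) := by rw [hp, ← ((g0_commute hl).inv_left).eq]
    _ = _ := by group

end Cfsg.Agent.TwE6Five
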