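import Cfsg.Agent.TwE6Five.Defs
import Cfsg.Agent.Linear.Transvection
import Cfsg.Agent.Linear.SmallIsoEight
import Cfsg.Agent.Linear.Orders
import Cfsg.Agent.Spec.StPres.Final

/-!
The group of the sub-system of type A3 lies in the twisted group and is the alternating group on eight letters
(owner: helper48).
-/

set_option autoImplicit false

namespace Cfsg.Agent.TwE6Five

open Cfsg Cfsg.Lie Cfsg.Agent.ChevGrp Cfsg.Agent.GFour25
open scoped MatrixGroups

theorem charP_F4 : CharP F4 2 :=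
  CharTwo.of_one_ne_zero_of_two_eq_zero one_ne_zero (by rw [← one_add_one_eq_two]; decide +kernel)

attribute [local instance] charP_F4

set_option maxHeartbeats 0 in
theorem phiT_lt : ∀ r ∈ phiT, r < chevE6.nroots := by decide +kernel

theorem nI_eq (i : Fin chevE6.rank) :
    (glSys (rulesE F4)).nI i =
      X4 (chevE6.simple i) 1 * X4 (chevE6.neg (chevE6.simple i)) 1 * X4 (chevE6.simple i) 1 := by
  show X4 (chevE6.simple i) 1 * X4 (chevE6.neg (chevE6.simple i)) (-(1 : F4)⁻¹) * X4 (chevE6.simple i) 1 = _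
  rw [inv_one, CharTwo.neg_eq]

theorem word_mem {w : List (ℕ × F4)} (hw : w ∈ e6Words F4 2) :
    (w.map fun p => X4 p.1 p.2).prod ∈ Tw4 := ChevTw.word_mem_genSubgroup (rulesE F4) hw

theorem X4_mem {r : ℕ} (hr : r ∈ [46, 25, 39, 32]) : X4 r 1 ∈ Tw4 := by
  have := word_mem (w := [(r, (1 : F4))]) (Or.inl ⟨1, one_pow 2, r, hr, rfl⟩)
  simpa using this

theorem pair_mem {rs : ℕ × ℕ} (h : rs ∈ [(56, 36), (15, 35), (42, 37), (29, 34)]) :
    X4 rs.1 1 * X4 rs.2 1 ∈ Tw4 := by
  have := word_mem (w := [(rs.1, (1 : F4)), (rs.2, (1 : F4) ^ 2)]) (Or.inr ⟨1, rs, h, rfl⟩)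
  simpa using this

theorem swap_six {M : Type*} [Monoid M] {a b c d : M} (hac : Commute a c) (had : Commute a d)
    (hbc : Commute b c) : a * b * a * (c * d * c) = a * c * (b * d) * (a * c) := by
  calc a * b * a * (c * d * c) = a * b * (a * c) * d * c := by simp only [mul_assoc]
    _ = a * b * (c * a) * d * c := by rw [hac.eq]
    _ = a * (b * c) * (a * d) * c := by simp only [mul_assoc]
    _ = a * (c * b) * (d * a) * c := by rw [hbc.eq, had.eq]
    _ = a * c * (b * d) * (a * c) := by simp only [mul_assoc]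

set_option maxHeartbeats 0 in
theorem gen_data : ∀ k : Fin 6,
    chevE6.simple k.val = [56, 46, 42, 39, 37, 36].getD k.val 0 ∧
      chevE6.neg (chevE6.simple k.val) = [15, 25, 29, 32, 34, 35].getD k.val 0 := by
  decide +kernel

set_option maxHeartbeats 0 in
theorem pair_pr : ∀ q ∈ [(56, 36), (56, 35), (15, 36), (42, 37), (42, 34), (29, 37)],
    0 ≤ EInvol.pr chevE6 q.1 q.2 ∧ q.1 < chevE6.nroots ∧ q.2 < chevE6.nroots := by decide +kernel

/-- The Weyl words of the fixed fundamental reflections. -/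
def wGens : List (List (Fin chevE6.rank)) :=
  [[⟨1, by decide⟩], [⟨3, by decide⟩], [⟨0, by decide⟩, ⟨5, by decide⟩], [⟨2, by decide⟩, ⟨4, by decide⟩]]

theorem nW_gen_mem : ∀ w ∈ wGens, (glSys (rulesE F4)).nW w ∈ Tw4 := by
  intro w hw
  simp only [wGens, List.mem_cons, List.not_mem_nil, or_false] at hw
  have com : ∀ q ∈ [(56, 36), (56, 35), (15, 36), (42, 37), (42, 34), (29, 37)],
      Commute (X4 q.1 1) (X4 q.2 1) := fun q hq =>
    EInvol.X_commute (rulesE F4) good (pair_pr q hq).2.1 (pair_pr q hq).2.2 (pair_pr q hq).1 1 1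
  have d := gen_data
  rcases hw with rfl | rfl | rfl | rfl
  · rw [Sys.nW_singleton, nI_eq, (d ⟨1, by decide⟩).2, (d ⟨1, by decide⟩).1]
    exact mul_mem (mul_mem (X4_mem (by decide)) (X4_mem (by decide))) (X4_mem (by decide))
  · rw [Sys.nW_singleton, nI_eq, (d ⟨3, by decide⟩).2, (d ⟨3, by decide⟩).1]
    exact mul_mem (mul_mem (X4_mem (by decide)) (X4_mem (by decide))) (X4_mem (by decide))
  · rw [Sys.nW_cons, Sys.nW_singleton, nI_eq, nI_eq, (d ⟨0, by decide⟩).2, (d ⟨0, by decide⟩).1,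
      (d ⟨5, by decide⟩).2, (d ⟨5, by decide⟩).1]
    show X4 56 1 * X4 15 1 * X4 56 1 * (X4 36 1 * X4 35 1 * X4 36 1) ∈ Tw4
    rw [swap_six (com (56, 36) (by decide)) (com (56, 35) (by decide)) (com (15, 36) (by decide))]
    exact mul_mem (mul_mem (pair_mem (rs := (56, 36)) (by decide)) (pair_mem (rs := (15, 35)) (by decide)))
      (pair_mem (rs := (56, 36)) (by decide))
  · rw [Sys.nW_cons, Sys.nW_singleton, nI_eq, nI_eq, (d ⟨2, by decide⟩).2, (d ⟨2, by decide⟩).1,
      (d ⟨4, by decide⟩).2, (d ⟨4, by decide⟩).1]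
    show X4 42 1 * X4 29 1 * X4 42 1 * (X4 37 1 * X4 34 1 * X4 37 1) ∈ Tw4
    rw [swap_six (com (42, 37) (by decide)) (com (42, 34) (by decide)) (com (29, 37) (by decide))]
    exact mul_mem (mul_mem (pair_mem (rs := (42, 37)) (by decide)) (pair_mem (rs := (29, 34)) (by decide)))
      (pair_mem (rs := (42, 37)) (by decide))

/-- For each root of the sub-system, the indices of a word carrying the root `46` to it. -/
def phiPath : List (ℕ × List ℕ) :=
  [(46, []), (25, [0]), (47, [1]), (24, [1, 0]), (39, [0, 1]), (32, [0, 1, 0]), (69, [3, 2, 1, 3, 1]),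
   (2, [3, 2, 1, 3, 1, 0]), (70, [1, 3, 2, 1, 3, 1]), (1, [1, 3, 2, 1, 3, 1, 0]), (71, [0, 1, 3, 2, 1, 3, 1]),
   (0, [0, 1, 3, 2, 1, 3, 1, 0])]

set_option maxHeartbeats 0 in
theorem path_ok : ∀ r ∈ phiT, ∃ p ∈ phiPath, p.1 = r ∧
    act chevE6 (p.2.map fun j => wGens.getD j []).flatten 46 = r := by decide +kernel

theorem X4_phi_mem {r : ℕ} (hr : r ∈ phiT) : X4 r 1 ∈ Tw4 := by
  obtain ⟨p, -, -, hp⟩ := path_ok r hr
  have hn : (glSys (rulesE F4)).nW (p.2.map fun j => wGens.getD j []).flatten ∈ Tw4 := by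
    generalize p.2 = l
    induction l with
    | nil => exact one_mem _
    | cons j l ih =>
      rw [List.map_cons, List.flatten_cons, Sys.nW_append]
      refine mul_mem ?_ ih
      rw [List.getD_eq_getElem?_getD]
      cases h : wGens[j]? with
      | none => exact one_mem _
      | some w => exact nW_gen_mem w (List.mem_of_getElem? h)
  have h := EInvol.nW_conj (rulesE F4) good (p.2.map fun j => wGens.getD j []).flatten 46
    (phiT_lt 46 (by decide)) (1 : F4)
  rw [hp] at h
  show EInvol.X chevE6 r (1 : F4) ∈ Tw4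
  rw [← h]
  exact mul_mem (mul_mem hn (X4_mem (by decide))) (inv_mem hn)

theorem L2_le_Tw : L2 ≤ Tw4 := by
  refine (Subgroup.closure_le _).2 ?_
  rintro g ⟨r, hr, rfl⟩
  exact X4_phi_mem hr

/-- The root at a pair of indices. -/
def rt (i j : Fin 4) : ℕ :=
  [[0, 69, 70, 71], [2, 0, 39, 47], [1, 32, 0, 46], [0, 24, 25, 0]].getD i.val [] |>.getD j.val 0

/-- The two elements of the prime field. -/
def kap (t : ZMod 2) : F4 := if t = 0 then 0 else 1

theorem rt_mem : ∀ i j : Fin 4, i ≠ j → rt i j ∈ phiT := by decide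

theorem rt_range : ∀ r ∈ phiT, ∃ i j : Fin 4, i ≠ j ∧ rt i j = r := by decide

set_option maxHeartbeats 0 in
theorem rt_comm0 : ∀ i j k l : Fin 4, i ≠ j → k ≠ l → i ≠ l → j ≠ k →
    0 ≤ EInvol.pr chevE6 (rt i j) (rt k l) := by decide +kernel

set_option maxHeartbeats 0 in
theorem rt_sum : ∀ i j l : Fin 4, i ≠ j → j ≠ l → i ≠ l →
    EInvol.pr chevE6 (rt j l) (rt i j) = -1 ∧ 0 ≤ EInvol.pr chevE6 (rt i l) (rt j l) ∧
      0 ≤ EInvol.pr chevE6 (rt i l) (rt i j) ∧
      ∀ j' : Fin chevE6.rank, EInvol.cf chevE6 (rt i l) j' =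
        EInvol.cf chevE6 (rt j l) j' + EInvol.cf chevE6 (rt i j) j' := by decide +kernel

theorem sys : Spec.StPres.Sys (ZMod 2) 4 (fun i j t => X4 (rt i j) (kap t)) where
  add i j h t u := by
    have hk : ∀ t u : ZMod 2, kap t + kap u = kap (t + u) := by decide
    rw [← hk]
    exact (glSys (rulesE F4)).x_add (rt i j) (phiT_lt _ (rt_mem i j h)) (kap t) (kap u)
  comm0 i j k l hij hkl hil hjk t u :=
    EInvol.X_commute (rulesE F4) good (phiT_lt _ (rt_mem i j hij)) (phiT_lt _ (rt_mem k l hkl))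
      (rt_comm0 i j k l hij hkl hil hjk) (kap t) (kap u)
  comm1 i j l hij hjl hil t u := by
    have hm : ∀ t u : ZMod 2, kap u * kap t = kap (t * u) := by decide
    obtain ⟨hp, hc1, hc2, hv⟩ := rt_sum i j l hij hjl hil
    have hr := phiT_lt _ (rt_mem j l hjl)
    have hs := phiT_lt _ (rt_mem i j hij)
    have hk' := phiT_lt _ (rt_mem i l hil)
    obtain ⟨k, hk, hvec, hrel⟩ := EInvol.exists_sum (F := F4) (rulesE F4) good hr hs hp
    obtain rfl : k = rt i l := rootTable.vec_inj k hk _ hk' (by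
      funext j'
      rw [hvec, Pi.add_apply, Pi.smul_apply, Pi.smul_apply, one_smul, one_smul,
        good.vec_apply hr, good.vec_apply hs, good.vec_apply hk', hv j'])
    have h2 := hrel (kap u) (kap t)
    rw [hm] at h2
    have c1 := EInvol.X_commute (rulesE F4) good hk' hr hc1 (kap (t * u)) (kap u)
    have c2 := EInvol.X_commute (rulesE F4) good hk' hs hc2 (kap (t * u)) (kap t)
    refine h2.trans ?_
    rw [← (c1.mul_right c2).eq, ← mul_assoc]

theorem isSimpleGroup_SL_four_two : IsSimpleGroup SL(4, ZMod 2) := by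
  have hc : Subgroup.center SL(4, ZMod 2) = ⊥ := Subgroup.eq_bot_of_card_eq _ (by
    rw [Linear.card_center_SL, Fintype.card_fin, ZMod.card]; rfl)
  obtain ⟨f⟩ := Linear.psl_four_two_zmod_iso
  haveI : IsSimpleGroup (alternatingGroup (Fin 8)) := alternatingGroup.isSimpleGroup (by simp)
  exact (((QuotientGroup.quotientMulEquivOfEq hc).trans QuotientGroup.quotientBot).symm.trans f).isSimpleGroup

theorem L2_equiv : Nonempty (↥L2 ≃* ↥(alternatingGroup (Fin 8))) := by
  obtain ⟨Φ, hΦ⟩ := Spec.StPres.exists_hom (n := 4) (by decide) sys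
  have hrange : Φ.range = L2 := by
    apply le_antisymm
    · rintro _ ⟨A, rfl⟩
      induction A using Linear.transvection_induction with
      | htransvec i j h c =>
        rw [hΦ i j h c]
        rcases (show ∀ c : ZMod 2, c = 0 ∨ c = 1 by decide) c with rfl | rfl
        · rw [show kap (0 : ZMod 2) = 0 from rfl]
          show X4 (rt i j) 0 ∈ L2
          rw [show X4 (rt i j) 0 = 1 from (glSys (rulesE F4)).x_zero (phiT_lt _ (rt_mem i j h))]
          exact one_mem _
        · exact Subgroup.subset_closure ⟨rt i j, rt_mem i j h, rfl⟩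
      | hmul A B hA hB => rw [map_mul]; exact mul_mem hA hB
    · refine (Subgroup.closure_le _).2 ?_
      rintro g ⟨r, hr, rfl⟩
      obtain ⟨i, j, h, rfl⟩ := rt_range r hr
      exact ⟨Matrix.SpecialLinearGroup.transvection h 1, hΦ i j h 1⟩
  haveI := isSimpleGroup_SL_four_two
  have hinj : Function.Injective Φ := by
    rw [← MonoidHom.ker_eq_bot_iff]
    refine (IsSimpleGroup.eq_bot_or_eq_top_of_normal _ Φ.normal_ker).resolve_right fun h => ?_
    have h01 : (0 : Fin 4) ≠ 1 := by decide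
    have h1 : X4 (rt 0 1) 1 = 1 := by
      rw [← show kap 1 = 1 from rfl, ← hΦ 0 1 h01 1, ← MonoidHom.mem_ker, h]
      exact Subgroup.mem_top _
    have h2 := congrArg (fun g : G4 => (g : Matrix chevE6.Idx chevE6.Idx F4)) h1
    simp only [Units.val_one] at h2
    rw [val_xGL (rulesE F4)] at h2
    exact one_ne_zero ((Chev.validE6.x_eq_one_iff (phiT_lt _ (rt_mem 0 1 h01))).1 h2)
  have hc : Subgroup.center SL(4, ZMod 2) = ⊥ := Subgroup.eq_bot_of_card_eq _ (by
    rw [Linear.card_center_SL, Fintype.card_fin, ZMod.card]; rfl)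
  obtain ⟨f⟩ := Linear.psl_four_two_zmod_iso
  exact ⟨((MulEquiv.subgroupCongr hrange.symm).trans (MonoidHom.ofInjective hinj).symm).trans
    (((QuotientGroup.quotientMulEquivOfEq hc).trans QuotientGroup.quotientBot).symm.trans f)⟩

end Cfsg.Agent.TwE6Five
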