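import Cfsg.Agent.TwE6Five.Cent
import Cfsg.Agent.TwE6Five.Levi

/-!
The element of order five lies in the twisted group and its centraliser is a cyclic group of order five times the
alternating group on eight letters (owner: helper16).
-/

set_option autoImplicit false

namespace Cfsg.Agent.TwE6Five

open Cfsg Cfsg.Lie Cfsg.Agent.ChevGrp Cfsg.Agent.GFour25

attribute [local instance] charP_F4

theorem xEl_mem : xEl ∈ Tw4 := by
  have com : ∀ q ∈ [(56, 36), (56, 35), (15, 36), (42, 37), (42, 34), (29, 37)], ∀ t u : F4,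
      Commute (X4 q.1 t) (X4 q.2 u) := fun q hq t u =>
    EInvol.X_commute (rulesE F4) good (pair_pr q hq).2.1 (pair_pr q hq).2.2 (pair_pr q hq).1 t u
  have hn : Commute (X4 56 1 * X4 15 1 * X4 56 1) (X4 36 (om4 * om4)) :=
    ((com (56, 36) (by decide) 1 _).mul_left (com (15, 36) (by decide) 1 _)).mul_left (com (56, 36) (by decide) 1 _)
  rw [xEl, mul_assoc (X4 56 om4), ← mul_assoc _ (X4 36 (om4 * om4)), hn.eq, mul_assoc (X4 36 (om4 * om4)),
    ← mul_assoc (X4 56 om4),
    swap_six (com (56, 36) (by decide) 1 1) (com (56, 35) (by decide) 1 1) (com (15, 36) (by decide) 1 1)]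
  refine mul_mem ?_ (mul_mem (mul_mem (pair_mem (rs := (56, 36)) (by decide)) (pair_mem (rs := (15, 35)) (by decide)))
    (pair_mem (rs := (56, 36)) (by decide)))
  have := word_mem (w := [(56, om4), (36, om4 ^ 2)]) (Or.inr ⟨om4, (56, 36), by decide, rfl⟩)
  simpa [pow_two] using this

theorem tEl_pow_five : tEl ^ 5 = 1 := by
  rw [tEl, (commute_phi dS (sqS dS)).mul_pow, ← map_pow, ← map_pow, ← map_pow,
    show dS ^ 5 = 1 from Subtype.ext (by rw [Matrix.SpecialLinearGroup.coe_pow]; decide +kernel), map_one, map_one,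
    map_one, one_mul]

theorem iota_xEl_pow (k : ℕ) : iota (xEl ^ k) = g0 * tEl ^ k * g0⁻¹ := by
  rw [map_pow, eq_mul_inv_iff_mul_eq]
  exact ((show SemiconjBy g0 tEl (iota xEl) from xEl_conj.symm).pow_right k).eq.symm

theorem xEl_pow_five : xEl ^ 5 = 1 := by
  apply iota_injective
  rw [iota_xEl_pow, tEl_pow_five, map_one, mul_one, mul_inv_cancel]

theorem xEl_commute {l : G4} (hl : l ∈ L2) : Commute xEl l := by
  have h : iota l ∈ L16 := L16_eq ▸ Subgroup.mem_map_of_mem iota hl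
  have := (L16_commute h mS (sqS mS)).eq
  rw [← iota_xEl, ← map_mul, ← map_mul] at this
  exact iota_injective this

theorem pow_mem_L2 {k : ℕ} (h : xEl ^ k ∈ L2) : 5 ∣ k := by
  have h16 : g0 * tEl ^ k * g0⁻¹ ∈ L16 := by
    rw [← iota_xEl_pow, L16_eq]; exact Subgroup.mem_map_of_mem iota h
  have hl : tEl ^ k ∈ L16 := by
    have := (g0_commute h16).eq
    have e : tEl ^ k = g0 * tEl ^ k * g0⁻¹ := by
      apply mul_left_cancel (a := g0)
      rw [this, inv_mul_cancel_right]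
    rw [e]; exact h16
  have hc := L16_commute hl (uS 1) 1
  rw [map_one, mul_one, phi_upper h56 rfl] at hc
  have htk : ∀ n : ℕ, tEl ^ n * X16 56 1 * (tEl ^ n)⁻¹ = X16 56 (zeta ^ (n * 2)) := by
    intro n
    induction n with
    | zero => simp
    | succ n ih =>
      rw [pow_succ', show tEl * tEl ^ n * X16 56 1 * (tEl * tEl ^ n)⁻¹ =
        tEl * (tEl ^ n * X16 56 1 * (tEl ^ n)⁻¹) * tEl⁻¹ by group, ih, tEl_X h56,
        show chiE 56 = ((2 : ℕ) : ℤ) by decide +kernel, zpow_natCast, ← pow_add]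
      congr 2
      ring
  have h1 := htk k
  rw [← hc.eq, mul_inv_cancel_right] at h1
  have h2 : zeta ^ (((k * 2 : ℕ)) : ℤ) = zeta ^ (0 : ℤ) := by
    rw [zpow_natCast, zpow_zero]; exact (X16_inj h56 h1).symm
  have := zeta_zpow_inj h2
  omega

theorem xEl_order : orderOf xEl = 5 := by
  haveI : Fact (Nat.Prime 5) := ⟨by norm_num⟩
  refine orderOf_eq_prime xEl_pow_five fun h => ?_
  have := pow_mem_L2 (k := 1) (by rw [pow_one, h]; exact one_mem _)
  omega

/-- The element of order five in the twisted group. -/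
noncomputable def xTw : ↥Tw4 := ⟨xEl, xEl_mem⟩

theorem xTw_order : orderOf xTw = 5 := by
  rw [← Subgroup.orderOf_coe]; exact xEl_order

theorem cent_equiv : Nonempty (↥(Subgroup.centralizer ({xTw} : Set ↥Tw4)) ≃*
    (Multiplicative (ZMod 5) × ↥(alternatingGroup (Fin 8)))) := by
  obtain ⟨eA⟩ := L2_equiv
  let Z : Subgroup G4 := Subgroup.zpowers xEl
  have comm : ∀ (a : ↥Z) (b : ↥L2), Commute (Z.subtype a) (L2.subtype b) := by
    rintro ⟨a, j, rfl⟩ ⟨b, hb⟩
    exact (xEl_commute hb).zpow_left j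
  let f : ↥Z × ↥L2 →* G4 := Z.subtype.noncommCoprod L2.subtype comm
  have hnat : ∀ a ∈ Z, ∃ k : ℕ, a = xEl ^ k := by
    intro a ha
    obtain ⟨k, hk⟩ := (isOfFinOrder_iff_pow_eq_one.2 ⟨5, by norm_num, xEl_pow_five⟩).mem_zpowers_iff_mem_range_orderOf.mp ha |>
      Finset.mem_image.mp
    exact ⟨k, hk.2.symm⟩
  have finj : Function.Injective f := by
    rw [← MonoidHom.ker_eq_bot_iff, eq_bot_iff]
    rintro ⟨⟨a, ha⟩, ⟨b, hb⟩⟩ h
    rw [MonoidHom.mem_ker] at h
    replace h : a * b = 1 := h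
    obtain ⟨k, rfl⟩ := hnat a ha
    have : xEl ^ k ∈ L2 := by rw [eq_inv_of_mul_eq_one_left h]; exact inv_mem hb
    obtain ⟨q, rfl⟩ := pow_mem_L2 this
    have e : xEl ^ (5 * q) = 1 := by rw [pow_mul, xEl_pow_five, one_pow]
    rw [e, one_mul] at h
    rw [Subgroup.mem_bot]
    exact Prod.ext (Subtype.ext e) (Subtype.ext h)
  have hrange : f.range = (Subgroup.centralizer ({xTw} : Set ↥Tw4)).map Tw4.subtype := by
    apply le_antisymm
    · rintro _ ⟨⟨⟨a, j, rfl⟩, ⟨b, hb⟩⟩, rfl⟩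
      refine ⟨⟨xEl ^ j * b, mul_mem (zpow_mem xEl_mem j) (L2_le_Tw hb)⟩, ?_, rfl⟩
      rw [SetLike.mem_coe, Subgroup.mem_centralizer_singleton_iff]
      refine Subtype.ext ?_
      show xEl ^ j * b * xEl = xEl * (xEl ^ j * b)
      exact ((Commute.zpow_self xEl j).mul_left (xEl_commute hb).symm).eq
    · rintro _ ⟨⟨y, hy⟩, hc, rfl⟩
      rw [SetLike.mem_coe, Subgroup.mem_centralizer_singleton_iff] at hc
      obtain ⟨k, l, hl, rfl⟩ := cent_x hy (congrArg Subtype.val hc)
      exact ⟨(⟨xEl ^ k, pow_mem (Subgroup.mem_zpowers xEl) k⟩, ⟨l, hl⟩), rfl⟩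
  have cZ : Nat.card ↥Z = Nat.card (Multiplicative (ZMod 5)) := by
    rw [Nat.card_zpowers, xEl_order, Nat.card_congr Multiplicative.toAdd, Nat.card_zmod]
  exact ⟨((Subgroup.equivMapOfInjective _ _ (Subgroup.subtype_injective Tw4)).trans
    (MulEquiv.subgroupCongr hrange.symm)).trans ((MonoidHom.ofInjective finj).symm.trans
      ((mulEquivOfCyclicCardEq cZ).prodCongr eA))⟩

end Cfsg.Agent.TwE6Five
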