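import Mathlib

/-!
A Sylow 5-subgroup of order 25 whose automiser contains the monomial group: if the automiser is not exactly monomial
then all elements of order five are conjugate (owner: helper16).
-/

set_option autoImplicit false

namespace Cfsg.Agent.TwE6Five.SylowCount

instance fact_prime_five : Fact (Nat.Prime 5) := ⟨by norm_num⟩

/-- The exponent pairs. -/
abbrev V : Type := ZMod 5 × ZMod 5

/-- The linear map given by the images of the two generators. -/
def lin (M : V × V) (v : V) : V := (v.1 * M.1.1 + v.2 * M.2.1, v.1 * M.1.2 + v.2 * M.2.2)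

/-- The composite of two pairs of images. -/
def comp (M N : V × V) : V × V := (lin M N.1, lin M N.2)

/-- Doubling of the first coordinate. -/
def dM : V × V := ((2, 0), (0, 1))

/-- The exchange. -/
def sM : V × V := ((0, 1), (1, 0))

/-- The monomial pairs. -/
def mono : Finset (V × V) :=
  Finset.univ.filter fun M => (M.1.2 = 0 ∧ M.2.1 = 0 ∧ M.1.1 ≠ 0 ∧ M.2.2 ≠ 0) ∨
    (M.1.1 = 0 ∧ M.2.2 = 0 ∧ M.1.2 ≠ 0 ∧ M.2.1 ≠ 0)

theorem card_mono : mono.card = 32 := by decide +kernel

/-- The iterates of the doubling. -/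
def dIter : ℕ → V × V
  | 0 => ((1, 0), (0, 1))
  | i + 1 => comp dM (dIter i)

theorem mono_gen : ∀ M ∈ mono, ∃ (i j : Fin 4) (e : Bool),
    M = comp (dIter i.val) (comp (comp sM (comp (dIter j.val) sM)) (if e then sM else dIter 0)) := by
  decide +kernel

theorem off_axis : ∀ v u : V, v.1 ≠ 0 → v.2 ≠ 0 → u.1 ≠ 0 → u.2 ≠ 0 →
    ((u.1 / v.1, (0 : ZMod 5)), ((0 : ZMod 5), u.2 / v.2)) ∈ mono ∧
      lin ((u.1 / v.1, (0 : ZMod 5)), ((0 : ZMod 5), u.2 / v.2)) v = u := by
  decide +kernel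

theorem on_axis : ∀ u : V, u ≠ 0 → (u.1 = 0 ∨ u.2 = 0) → ∃ M ∈ mono, M.1 = u := by decide +kernel

set_option synthInstance.maxSize 1024 in
theorem indep_axes : ∀ v w : V, v ≠ 0 → (v.1 = 0 ∨ v.2 = 0) → (w.1 = 0 ∨ w.2 = 0) →
    (∀ k : ZMod 5, w ≠ (k * v.1, k * v.2)) → (v, w) ∈ mono := by decide +kernel

variable {G : Type*} [Group G]

/-- The hypotheses. -/
structure Data (a b d s : G) : Prop where
  a5 : a ^ 5 = 1
  ab : a * b = b * a
  da : d * a * d⁻¹ = a ^ 2
  db : d * b * d⁻¹ = b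
  sa : s * a * s⁻¹ = b
  sb : s * b * s⁻¹ = a
  indep : ∀ i : Fin 5, b ≠ a ^ i.val

variable {a b d s : G}

/-- The element with given exponents. -/
def P (a b : G) (v : V) : G := a ^ v.1.val * b ^ v.2.val

theorem val_one' : (1 : ZMod 5).val = 1 := rfl

theorem val_two' : (2 : ZMod 5).val = 2 := rfl

/-- The element `g` induces the pair `M`. -/
def Ind (a b g : G) (M : V × V) : Prop := g * a * g⁻¹ = P a b M.1 ∧ g * b * g⁻¹ = P a b M.2

namespace Data

variable (h : Data a b d s)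
include h

theorem b5 : b ^ 5 = 1 := by rw [← h.sa, conj_pow, h.a5, mul_one, mul_inv_cancel]

theorem a_ne : a ≠ 1 := fun e => h.indep 0 (by rw [← h.sa, e]; simp)

theorem pow_val (i j : ZMod 5) : a ^ (i + j).val = a ^ i.val * a ^ j.val := by
  rw [← pow_add, ZMod.val_add, ← pow_eq_pow_mod _ h.a5]

theorem pow_val' (i j : ZMod 5) : b ^ (i + j).val = b ^ i.val * b ^ j.val := by
  rw [← pow_add, ZMod.val_add, ← pow_eq_pow_mod _ h.b5]

theorem P_add (v w : V) : P a b (v + w) = P a b v * P a b w := by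
  have hc : Commute (b ^ v.2.val) (a ^ w.1.val) := (show Commute b a from h.ab.symm).pow_pow _ _
  simp only [P, Prod.fst_add, Prod.snd_add, h.pow_val, h.pow_val']
  calc a ^ v.1.val * a ^ w.1.val * (b ^ v.2.val * b ^ w.2.val)
      = a ^ v.1.val * (a ^ w.1.val * b ^ v.2.val) * b ^ w.2.val := by simp only [mul_assoc]
    _ = a ^ v.1.val * (b ^ v.2.val * a ^ w.1.val) * b ^ w.2.val := by rw [hc.eq]
    _ = _ := by simp only [mul_assoc]

omit h in
theorem P_zero : P a b 0 = 1 := by simp [P]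

omit h in
theorem P_fst : P a b (1, 0) = a := by simp [P, val_one']

omit h in
theorem P_snd : P a b (0, 1) = b := by simp [P, val_one']

/-- The homomorphism of exponents. -/
def hom : Multiplicative V →* G where
  toFun v := P a b (Multiplicative.toAdd v)
  map_one' := P_zero
  map_mul' _ _ := h.P_add _ _

theorem P_eq_one {v : V} (e : P a b v = 1) : v = 0 := by
  obtain ⟨i, j⟩ := v
  have hj : j = 0 := by
    by_contra hj
    have e' : b ^ j.val = (a ^ i.val)⁻¹ := eq_inv_of_mul_eq_one_right e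
    have hb : b = a ^ ((((5 - i.val) * j⁻¹.val) % 5)) := by
      have h1 : (b ^ j.val) ^ j⁻¹.val = b := by
        rw [← pow_mul, pow_eq_pow_mod _ h.b5, ← ZMod.val_mul, mul_inv_cancel₀ hj]
        simp [ZMod.val_one]
      rw [← h1, e', ← pow_eq_pow_mod _ h.a5, pow_mul]
      congr 1
      refine inv_eq_of_mul_eq_one_right ?_
      rw [← pow_add, show i.val + (5 - i.val) = 5 by have := i.val_lt; omega, h.a5]
    exact h.indep ⟨_, Nat.mod_lt _ (by norm_num)⟩ hb
  subst hj
  have e' : a ^ i.val = 1 := by simpa [P] using e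
  have hi : i.val = 0 := by
    have hd := orderOf_dvd_of_pow_eq_one e'
    rw [orderOf_eq_prime h.a5 h.a_ne] at hd
    exact Nat.eq_zero_of_dvd_of_lt hd i.val_lt
  exact Prod.ext ((ZMod.val_eq_zero i).1 hi) rfl

theorem P_inj {v w : V} (e : P a b v = P a b w) : v = w := by
  have h1 := h.P_add (v - w) w
  rw [sub_add_cancel, e] at h1
  exact sub_eq_zero.1 (h.P_eq_one (mul_eq_right.1 h1.symm))

theorem card_range : Nat.card ↥h.hom.range = 25 := by
  rw [← Nat.card_congr (MonoidHom.ofInjective (f := h.hom) fun v w e =>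
    Multiplicative.toAdd.injective (h.P_inj e)).toEquiv, Nat.card_congr Multiplicative.toAdd]
  simp [V]

theorem P_mem (v : V) : P a b v ∈ h.hom.range := ⟨Multiplicative.ofAdd v, rfl⟩

theorem conj_P {g : G} {M : V × V} (hg : Ind a b g M) (v : V) : g * P a b v * g⁻¹ = P a b (lin M v) := by
  have hn : ∀ (u : V) (n : ℕ), P a b u ^ n = P a b ((n : ZMod 5) * u.1, (n : ZMod 5) * u.2) := by
    intro u n
    induction n with
    | zero => simp [P]
    | succ n ih =>
      rw [pow_succ, ih, ← h.P_add]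
      congr 1
      ext <;> simp [add_mul]
  have e : g * P a b v * g⁻¹ = (g * a * g⁻¹) ^ v.1.val * (g * b * g⁻¹) ^ v.2.val := by
    rw [conj_pow, conj_pow, P]; group
  rw [e, hg.1, hg.2, hn, hn, ← h.P_add, ZMod.natCast_zmod_val, ZMod.natCast_zmod_val]
  rfl

theorem ind_comp {g g' : G} {M N : V × V} (hg : Ind a b g M) (hg' : Ind a b g' N) :
    Ind a b (g * g') (comp M N) := by
  constructor
  · rw [show g * g' * a * (g * g')⁻¹ = g * (g' * a * g'⁻¹) * g⁻¹ by group, hg'.1, h.conj_P hg]; rfl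
  · rw [show g * g' * b * (g * g')⁻¹ = g * (g' * b * g'⁻¹) * g⁻¹ by group, hg'.2, h.conj_P hg]; rfl

theorem ind_sM : Ind a b s sM := ⟨by simp [sM, P, h.sa, val_one'], by simp [sM, P, h.sb, val_one']⟩

theorem ind_mono {M : V × V} (hM : M ∈ mono) : ∃ g, Ind a b g M := by
  have hd : ∀ i, ∃ g, Ind a b g (dIter i) := by
    intro i
    induction i with
    | zero => exact ⟨1, by simp [Ind, dIter, P, val_one']⟩
    | succ i ih =>
      obtain ⟨g, hg⟩ := ih
      refine ⟨d * g, h.ind_comp (M := dM) ⟨?_, ?_⟩ hg⟩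
      · simp [dM, P, h.da, val_two']
      · simp [dM, P, h.db, val_one']
  obtain ⟨i, j, e, rfl⟩ := mono_gen M hM
  obtain ⟨g1, h1⟩ := hd i.val
  obtain ⟨g2, h2⟩ := hd j.val
  cases e
  · obtain ⟨g3, h3⟩ := hd 0
    exact ⟨_, h.ind_comp h1 (h.ind_comp (h.ind_comp h.ind_sM (h.ind_comp h2 h.ind_sM)) h3)⟩
  · exact ⟨_, h.ind_comp h1 (h.ind_comp (h.ind_comp h.ind_sM (h.ind_comp h2 h.ind_sM)) h.ind_sM)⟩

theorem fst_ne {g : G} {M : V × V} (hg : Ind a b g M) :
    M.1 ≠ 0 ∧ ∀ k : ZMod 5, M.2 ≠ (k * M.1.1, k * M.1.2) := by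
  refine ⟨fun e => ?_, fun k e => ?_⟩
  · have h1 := hg.1
    rw [e, P_zero, conj_eq_one_iff] at h1
    exact h.a_ne h1
  · have h2 : lin M (k, -1) = 0 := by
      simp [lin, e, Prod.ext_iff]
    have h1 := h.conj_P hg (k, -1)
    rw [h2, P_zero, conj_eq_one_iff] at h1
    have := congrArg Prod.snd (h.P_eq_one h1)
    exact absurd this (show ((-1 : ZMod 5)) ≠ 0 by decide)

theorem card_normalizer [Finite G] (haxis : ∀ g M, Ind a b g M → M ∈ mono) :
    Nat.card ↥(Subgroup.normalizer (h.hom.range : Set G)) =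
      32 * Nat.card ↥(Subgroup.centralizer ({a, b} : Set G)) := by
  have hmem : ∀ g : G, g ∈ Subgroup.normalizer (h.hom.range : Set G) ↔ ∃ M : V × V, Ind a b g M := by
    intro g
    constructor
    · intro hg
      have ka := (Subgroup.mem_normalizer_iff.1 hg (P a b (1, 0))).1 (h.P_mem _)
      have kb := (Subgroup.mem_normalizer_iff.1 hg (P a b (0, 1))).1 (h.P_mem _)
      obtain ⟨v, hv⟩ := ka
      obtain ⟨w, hw⟩ := kb
      rw [P_fst] at hv
      rw [P_snd] at hw
      exact ⟨(Multiplicative.toAdd v, Multiplicative.toAdd w), hv.symm, hw.symm⟩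
    · rintro ⟨M, hM⟩
      rw [Subgroup.mem_normalizer_iff]
      intro x
      have hle : h.hom.range.map (MulAut.conj g).toMonoidHom ≤ h.hom.range := by
        rintro _ ⟨_, ⟨v, rfl⟩, rfl⟩
        show g * P a b (Multiplicative.toAdd v) * g⁻¹ ∈ h.hom.range
        rw [h.conj_P hM]
        exact h.P_mem _
      have he : h.hom.range.map (MulAut.conj g).toMonoidHom = h.hom.range :=
        Subgroup.eq_of_le_of_card_ge hle
          (le_of_eq (Subgroup.card_map_of_injective (MulAut.conj g).injective).symm)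
      constructor
      · intro hx
        rw [← he]
        exact ⟨x, hx, rfl⟩
      · intro hx
        rw [← he] at hx
        obtain ⟨y, hy, e⟩ := hx
        have e1 : g * y * g⁻¹ = g * x * g⁻¹ := e
        exact mul_left_cancel (mul_right_cancel e1) ▸ hy
  classical
  let rep : {M // M ∈ mono} → G := fun M => (h.ind_mono M.2).choose
  have hrep : ∀ M, Ind a b (rep M) M.1 := fun M => (h.ind_mono M.2).choose_spec
  have hC : ∀ c : G, c ∈ Subgroup.centralizer ({a, b} : Set G) ↔ Ind a b c ((1, 0), (0, 1)) := by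
    intro c
    rw [Subgroup.mem_centralizer_iff]
    simp only [Ind, P_fst, P_snd, Set.mem_insert_iff, Set.mem_singleton_iff, forall_eq_or_imp, forall_eq,
      mul_inv_eq_iff_eq_mul]
    exact ⟨fun e => ⟨e.1.symm, e.2.symm⟩, fun e => ⟨e.1.symm, e.2.symm⟩⟩
  have hcomp : ∀ M : V × V, comp M ((1, 0), (0, 1)) = M := fun M => by simp [comp, lin]
  let f : {M // M ∈ mono} × ↥(Subgroup.centralizer ({a, b} : Set G)) →
      ↥(Subgroup.normalizer (h.hom.range : Set G)) := fun p =>
    ⟨rep p.1 * p.2.1, (hmem _).2 ⟨_, h.ind_comp (hrep p.1) ((hC _).1 p.2.2)⟩⟩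
  have hf : Function.Bijective f := by
    constructor
    · rintro ⟨M, c, hc⟩ ⟨M', c', hc'⟩ e
      have e' : rep M * c = rep M' * c' := congrArg Subtype.val e
      have k1 := h.ind_comp (hrep M) ((hC _).1 hc)
      have k2 := h.ind_comp (hrep M') ((hC _).1 hc')
      rw [← e', hcomp] at k2
      rw [hcomp] at k1
      have hM : M = M' :=
        Subtype.ext (Prod.ext (h.P_inj (k1.1.symm.trans k2.1)) (h.P_inj (k1.2.symm.trans k2.2)))
      subst hM
      have hc2 : c = c' := mul_left_cancel e'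
      subst hc2
      rfl
    · rintro ⟨g, hg⟩
      obtain ⟨M, hM⟩ := (hmem g).1 hg
      let M' : {M // M ∈ mono} := ⟨M, haxis g M hM⟩
      have hc : (rep M')⁻¹ * g ∈ Subgroup.centralizer ({a, b} : Set G) := by
        rw [hC]
        obtain ⟨r1, r2⟩ := hrep M'
        refine ⟨?_, ?_⟩
        · rw [P_fst, show (rep M')⁻¹ * g * a * ((rep M')⁻¹ * g)⁻¹ = (rep M')⁻¹ * (g * a * g⁻¹) * rep M' by group,
            hM.1, ← r1]
          group
        · rw [P_snd, show (rep M')⁻¹ * g * b * ((rep M')⁻¹ * g)⁻¹ = (rep M')⁻¹ * (g * b * g⁻¹) * rep M' by group,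
            hM.2, ← r2]
          group
      exact ⟨(M', ⟨_, hc⟩), Subtype.ext (mul_inv_cancel_left _ _)⟩
  rw [← Nat.card_eq_of_bijective f hf, Nat.card_prod, Nat.card_eq_fintype_card (α := {M // M ∈ mono}),
    Fintype.card_coe, card_mono]

/-- All elements of order five are conjugate, unless the automiser is exactly monomial. -/
theorem all_conj [Finite G] (hSyl : ∀ g : G, g ^ 5 = 1 → ∃ c : G, c * g * c⁻¹ ∈ h.hom.range)
    (hn : Nat.card ↥(Subgroup.normalizer (h.hom.range : Set G)) ≠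
      32 * Nat.card ↥(Subgroup.centralizer ({a, b} : Set G))) :
    ∀ g : G, orderOf g = 5 → IsConj a g := by
  have hoff : ∃ (g : G) (M : V × V), Ind a b g M ∧ M.1.1 ≠ 0 ∧ M.1.2 ≠ 0 := by
    by_contra hno
    push Not at hno
    refine hn (h.card_normalizer fun g M hg => ?_)
    have h1 : M.1.1 = 0 ∨ M.1.2 = 0 := or_iff_not_imp_left.2 fun e => hno g M hg e
    have h2 := h.ind_comp hg h.ind_sM
    have e : (comp M sM).1 = M.2 := by simp [comp, lin, sM]
    have h2' : M.2.1 = 0 ∨ M.2.2 = 0 := or_iff_not_imp_left.2 fun e' => by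
      rw [← e]; exact hno _ _ h2 (by rw [e]; exact e')
    exact indep_axes M.1 M.2 (h.fst_ne hg).1 h1 h2' (h.fst_ne hg).2
  have hall : ∀ u : V, u ≠ 0 → IsConj a (P a b u) := by
    intro u hu
    by_cases hax : u.1 = 0 ∨ u.2 = 0
    · obtain ⟨M, hM, rfl⟩ := on_axis u hu hax
      obtain ⟨g, hg⟩ := h.ind_mono hM
      exact isConj_iff.2 ⟨g, hg.1⟩
    · push Not at hax
      obtain ⟨g, M, hg, m1, m2⟩ := hoff
      obtain ⟨hN, hl⟩ := off_axis M.1 u m1 m2 hax.1 hax.2
      obtain ⟨g', hg'⟩ := h.ind_mono hN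
      refine isConj_iff.2 ⟨g' * g, ?_⟩
      rw [(h.ind_comp hg' hg).1]
      exact congrArg _ hl
  intro g hg
  obtain ⟨c, v, hv⟩ := hSyl g (by rw [← hg]; exact pow_orderOf_eq_one g)
  have hne : Multiplicative.toAdd v ≠ 0 := fun e => by
    have h1 : c * g * c⁻¹ = 1 := by rw [← hv]; show P a b (Multiplicative.toAdd v) = 1; rw [e, P_zero]
    rw [conj_eq_one_iff] at h1
    rw [h1, orderOf_one] at hg
    norm_num at hg
  exact (hall _ hne).trans (isConj_iff.2 ⟨c⁻¹, by
    show c⁻¹ * P a b (Multiplicative.toAdd v) * c⁻¹⁻¹ = g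
    rw [show P a b (Multiplicative.toAdd v) = c * g * c⁻¹ from hv]; group⟩)

end Data

end Cfsg.Agent.TwE6Five.SylowCount
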