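import Cfsg.Agent.TwE6Five.Words
import Cfsg.Agent.TwE6Five.Final
import Cfsg.Agent.TwE6Five.SylowCount
import Cfsg.Agent.ChevTwOrd.E6
import Cfsg.Agent.ChevTw.TwE6Diag

/-!
The twisted group of type E6 over four elements has one class of elements of order five (owner: helper16).
-/

set_option autoImplicit false

namespace Cfsg.Agent.TwE6Five

open Cfsg Cfsg.Lie Cfsg.Agent.GFour25 Cfsg.Agent.TwE6Fi22

theorem letter_mem {k : ℕ} (hk : k < 16) : letter k ∈ Tw4 := by
  refine mem_Tw_of_word ?_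
  by_cases h : k < 4
  · refine Or.inl ⟨1, one_pow 2, [46, 25, 39, 32].getD k 46, ?_, by simp [lw, h]⟩
    interval_cases k <;> simp [e6p2, e6m2, e6p4, e6m4]
  · refine Or.inr ⟨toF ((k - 4) % 3 + 1), pairRoots.getD ((k - 4) / 3) (56, 36), ?_, by simp [lw, h, pow_two]⟩
    interval_cases k <;> simp [pairRoots, e6p1, e6p6, e6m1, e6m6, e6p3, e6p5, e6m3, e6m5] at *

theorem lword_mem {w : List ℕ} (hw : ∀ k ∈ w, k < 16) : lword w ∈ Tw4 := by
  refine list_prod_mem fun g hg => ?_
  obtain ⟨k, hk, rfl⟩ := List.mem_map.1 hg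
  exact letter_mem (hw k hk)

theorem words_small : (∀ k ∈ aW, k < 16) ∧ (∀ k ∈ bW, k < 16) ∧ (∀ k ∈ dW, k < 16) ∧ (∀ k ∈ sW, k < 16) := by
  decide +kernel

/-- The first element of order five. -/
noncomputable def aT : ↥Tw4 := ⟨lword aW, lword_mem words_small.1⟩

/-- The second element of order five. -/
noncomputable def bT : ↥Tw4 := ⟨lword bW, lword_mem words_small.2.1⟩

/-- The normalising element. -/
noncomputable def dT : ↥Tw4 := ⟨lword dW, lword_mem words_small.2.2.1⟩

/-- The exchanging element. -/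
noncomputable def sT : ↥Tw4 := ⟨lword sW, lword_mem words_small.2.2.2⟩

set_option maxHeartbeats 0 in
set_option maxRecDepth 100000 in
theorem sep_ok : ∀ t ∈ [idR, aR, a2R, a3R, a4R], ∃ p : Fin 78,
    get4 (conv (bR.getD 0 0)) p.val ≠ get4 (conv (t.getD 0 0)) p.val := by decide +kernel

theorem b_ne {i : ℕ} {R : List ℕ} (hR : R ∈ [idR, aR, a2R, a3R, a4R]) (hr : Rep (lword aW ^ i) R) :
    lword bW ≠ lword aW ^ i := by
  intro e
  obtain ⟨p, hp⟩ := sep_ok R hR
  have h := rep_b.apply 0
  rw [e, hr.apply 0] at h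
  have h2 := congrFun h ((ChevTw.idxEquiv chevE6).symm p)
  simp only [dec, d4, pos] at h2
  erw [(ChevTw.idxEquiv chevE6).apply_symm_apply p] at h2
  exact hp h2.symm

theorem data : SylowCount.Data aT bT dT sT where
  a5 := Subtype.ext a_pow
  ab := Subtype.ext a_b
  da := mul_inv_eq_of_eq_mul (Subtype.ext d_a)
  db := mul_inv_eq_of_eq_mul (Subtype.ext d_b)
  sa := Subtype.ext (by
    show lword sW * lword aW * (lword sW)⁻¹ = lword bW
    rw [bW, lword_append, lword_append, inv_eq_of_mul_eq_one_left s_inv])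
  sb := mul_inv_eq_of_eq_mul (Subtype.ext s_b)
  indep := by
    intro i e
    have e' : lword bW = lword aW ^ i.val := congrArg Subtype.val e
    have h := rows_ok
    simp only [Bool.and_eq_true] at h
    have h2 : Rep (lword aW ^ 2) a2R := by rw [eq_of_eqL h.1.1.2, pow_two]; exact rep_a.mul rep_a
    have h3 : Rep (lword aW ^ 3) a3R := by rw [eq_of_eqL h.1.2, pow_succ']; exact rep_a.mul h2
    have h4 : Rep (lword aW ^ 4) a4R := by
      rw [eq_of_eqL h.2, show 4 = 2 + 2 from rfl, pow_add]; exact h2.mul h2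
    fin_cases i
    · exact b_ne (i := 0) (R := idR) (by simp) (by rw [pow_zero]; exact idR_rep) e'
    · exact b_ne (i := 1) (R := aR) (by simp) (by rw [pow_one]; exact rep_a) e'
    · exact b_ne (i := 2) (by simp) h2 e'
    · exact b_ne (i := 3) (by simp) h3 e'
    · exact b_ne (i := 4) (by simp) h4 e'

theorem card_Tw4 : Nat.card ↥Tw4 = 76532479683774853939200 := by
  have hK : Fintype.card F4 = 2 ^ 2 := by rw [GFour25.card_F4]; rfl
  have hq : IsPrimePow 2 := Nat.prime_two.isPrimePow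
  have h := ChevTwOrd.order_E6 hq hK (ChevTw.thm_S1102 hq hK)
  norm_num at h
  show Nat.card ↥(twistedE6 F4 2) = _
  omega

theorem alt_cent : ∃ σ : ↥(alternatingGroup (Fin 8)), orderOf σ = 5 ∧
    Nat.card ↥(Subgroup.centralizer ({σ} : Set ↥(alternatingGroup (Fin 8)))) = 15 := by
  set g : Equiv.Perm (Fin 8) := Equiv.swap 0 1 * Equiv.swap 1 2 * Equiv.swap 2 3 * Equiv.swap 3 4 with hg
  have hs : Equiv.Perm.sign g = 1 := by rw [hg]; decide +kernel
  have h5 : g ^ 5 = 1 ∧ g ≠ 1 := by rw [hg]; decide +kernel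
  have hct : g.cycleType = {5} := by rw [hg]; decide +kernel
  have hsw : Equiv.swap (5 : Fin 8) 6 * g = g * Equiv.swap 5 6 := by rw [hg]; decide +kernel
  refine ⟨⟨g, Equiv.Perm.mem_alternatingGroup.2 hs⟩, ?_, ?_⟩
  · rw [← Subgroup.orderOf_coe]
    exact orderOf_eq_prime h5.1 h5.2
  set C := Subgroup.centralizer ({g} : Set (Equiv.Perm (Fin 8))) with hC
  have cC : Nat.card ↥C = 30 := by
    rw [hC, Equiv.Perm.nat_card_centralizer, hct]
    decide +kernel
  let f : ↥C →* ℤˣ := Equiv.Perm.sign.comp C.subtype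
  have hsurj : Function.Surjective f := by
    intro u
    rcases Int.units_eq_one_or u with rfl | rfl
    · exact ⟨1, map_one f⟩
    · exact ⟨⟨Equiv.swap 5 6, Subgroup.mem_centralizer_singleton_iff.2 hsw⟩, by
        show Equiv.Perm.sign (Equiv.swap (5 : Fin 8) 6) = -1
        exact Equiv.Perm.sign_swap (by decide)⟩
  have hker : Nat.card ↥f.ker = 15 := by
    have h := f.ker.card_mul_index
    rw [Subgroup.index_ker, MonoidHom.range_eq_top.2 hsurj, Subgroup.card_top, cC,
      show Nat.card ℤˣ = 2 by rw [Nat.card_eq_fintype_card]; rfl] at h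
    omega
  rw [← hker]
  refine Nat.card_congr
    { toFun := fun c => ⟨⟨c.1.1, Subgroup.mem_centralizer_singleton_iff.2 (congrArg Subtype.val
        (Subgroup.mem_centralizer_singleton_iff.1 c.2))⟩, Equiv.Perm.mem_alternatingGroup.1 c.1.2⟩
      invFun := fun c => ⟨⟨c.1.1, Equiv.Perm.mem_alternatingGroup.2 c.2⟩,
        Subgroup.mem_centralizer_singleton_iff.2 (Subtype.ext
          (Subgroup.mem_centralizer_singleton_iff.1 c.1.2))⟩
      left_inv := fun _ => rfl
      right_inv := fun _ => rfl }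

theorem centralizer_range_eq :
    Subgroup.centralizer (data.hom.range : Set ↥Tw4) = Subgroup.centralizer ({aT, bT} : Set ↥Tw4) := by
  apply le_antisymm
  · refine Subgroup.centralizer_le ?_
    rintro g (rfl | rfl)
    · simpa [SylowCount.Data.P_fst] using data.P_mem (1, 0)
    · simpa [SylowCount.Data.P_snd] using data.P_mem (0, 1)
  · intro c hc
    rw [Subgroup.mem_centralizer_iff] at hc ⊢
    rintro _ ⟨v, rfl⟩
    show Commute (SylowCount.P aT bT (Multiplicative.toAdd v)) c
    have ha : Commute aT c := hc aT (Or.inl rfl)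
    have hb : Commute bT c := hc bT (Or.inr rfl)
    exact (ha.pow_left _).mul_left (hb.pow_left _)

theorem isPGroup_five {H : Subgroup ↥Tw4} (h : Nat.card ↥H = 25) : IsPGroup 5 H :=
  IsPGroup.of_card (n := 2) (by rw [h]; rfl)

/-- A subgroup of order 25 as a Sylow subgroup. -/
noncomputable def sylow25 {H : Subgroup ↥Tw4} (h : Nat.card ↥H = 25) : Sylow 5 ↥Tw4 :=
  (isPGroup_five h).toSylow (by
    have h1 := H.card_mul_index
    rw [h, card_Tw4] at h1
    omega)

theorem sylow25_coe {H : Subgroup ↥Tw4} (h : Nat.card ↥H = 25) : (sylow25 h : Subgroup ↥Tw4) = H :=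
  IsPGroup.toSylow_coe _ _

theorem card_cent_pair : Nat.card ↥(Subgroup.centralizer ({aT, bT} : Set ↥Tw4)) = 75 := by
  obtain ⟨φ⟩ := cent_equiv
  obtain ⟨σ, hσ, hσc⟩ := alt_cent
  set C := Subgroup.centralizer ({xTw} : Set ↥Tw4) with hC
  have xC : xTw ∈ C := Subgroup.mem_centralizer_singleton_iff.2 rfl
  let ψ : Multiplicative (ZMod 5) × ↥(alternatingGroup (Fin 8)) →* ↥Tw4 := C.subtype.comp φ.symm.toMonoidHom
  have ψinj : Function.Injective ψ := C.subtype_injective.comp φ.symm.injective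
  set E : Subgroup ↥Tw4 := ((⊤ : Subgroup (Multiplicative (ZMod 5))).prod (Subgroup.zpowers σ)).map ψ with hE
  have cE : Nat.card ↥E = 25 := by
    rw [hE, Subgroup.card_map_of_injective ψinj, Nat.card_congr (Subgroup.prodEquiv _ _).toEquiv, Nat.card_prod,
      Subgroup.card_top, Nat.card_congr Multiplicative.toAdd, Nat.card_zmod, Nat.card_zpowers, hσ]
  have hx2 : (φ ⟨xTw, xC⟩).2 = 1 := by
    have hm : (φ ⟨xTw, xC⟩).2 ∈ Subgroup.center ↥(alternatingGroup (Fin 8)) := by
      rw [Subgroup.mem_center_iff]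
      intro p
      have hp := (φ.symm (1, p)).2
      have e : φ.symm (1, p) * ⟨xTw, xC⟩ = ⟨xTw, xC⟩ * φ.symm (1, p) :=
        Subtype.ext (Subgroup.mem_centralizer_singleton_iff.1 hp)
      have := congrArg (fun z => (φ z).2) e
      simpa using this
    rwa [alternatingGroup.center_eq_bot (by simp), Subgroup.mem_bot] at hm
  have xE : xTw ∈ E := ⟨φ ⟨xTw, xC⟩, ⟨Subgroup.mem_top _, by rw [hx2]; exact one_mem _⟩, by simp [ψ]⟩
  have eC : Nat.card ↥(Subgroup.centralizer (E : Set ↥Tw4)) = 75 := by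
    have hfun : ∀ y, y ∈ Subgroup.centralizer (E : Set ↥Tw4) ↔
        ∃ p ∈ (⊤ : Subgroup (Multiplicative (ZMod 5))).prod (Subgroup.centralizer {σ}), ψ p = y := by
      intro y
      constructor
      · intro hy
        have yC : y ∈ C := Subgroup.mem_centralizer_singleton_iff.2
          (Subgroup.mem_centralizer_iff.1 hy xTw xE).symm
        refine ⟨φ ⟨y, yC⟩, ⟨Subgroup.mem_top _, Subgroup.mem_centralizer_singleton_iff.2 ?_⟩, by simp [ψ]⟩
        have h1 := Subgroup.mem_centralizer_iff.1 hy (ψ (1, σ)) ⟨(1, σ), ⟨one_mem _, Subgroup.mem_zpowers σ⟩, rfl⟩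
        have e : (1, σ) * φ ⟨y, yC⟩ = φ ⟨y, yC⟩ * (1, σ) := ψinj (by
          rw [map_mul, map_mul, show ψ (φ ⟨y, yC⟩) = y by simp [ψ]]; exact h1)
        exact (congrArg Prod.snd e).symm
      · rintro ⟨⟨z, p⟩, ⟨-, hp⟩, rfl⟩
        rw [Subgroup.mem_centralizer_iff]
        rintro _ ⟨⟨z', q⟩, ⟨-, hq⟩, rfl⟩
        show ψ (z', q) * ψ (z, p) = ψ (z, p) * ψ (z', q)
        rw [← map_mul, ← map_mul]
        congr 1
        refine Prod.ext (mul_comm z' z) ?_
        obtain ⟨j, rfl⟩ := hq
        have hc : Commute σ p := (Subgroup.mem_centralizer_singleton_iff.1 hp).symm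
        exact hc.zpow_left j
    have he : Subgroup.centralizer (E : Set ↥Tw4) =
        ((⊤ : Subgroup (Multiplicative (ZMod 5))).prod (Subgroup.centralizer {σ})).map ψ :=
      Subgroup.ext fun y => (hfun y).trans Subgroup.mem_map.symm
    rw [he, Subgroup.card_map_of_injective ψinj, Nat.card_congr (Subgroup.prodEquiv _ _).toEquiv, Nat.card_prod,
      Subgroup.card_top, Nat.card_congr Multiplicative.toAdd, Nat.card_zmod, hσc]
  obtain ⟨g, hg⟩ := MulAction.exists_smul_eq (↥Tw4) (sylow25 cE) (sylow25 data.card_range)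
  have hg' : data.hom.range = E.map (MulAut.conj g).toMonoidHom := by
    rw [← sylow25_coe data.card_range, ← hg, Sylow.smul_def, Sylow.pointwise_smul_def, sylow25_coe]
    rfl
  have hmap : Subgroup.centralizer (data.hom.range : Set ↥Tw4) =
      (Subgroup.centralizer (E : Set ↥Tw4)).map (MulAut.conj g).toMonoidHom := by
    ext y
    simp only [hg', Subgroup.mem_map, Subgroup.mem_centralizer_iff, Subgroup.coe_map, Set.forall_mem_image,
      SetLike.mem_coe]
    constructor
    · intro h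
      refine ⟨(MulAut.conj g).symm y, fun z hz => (MulAut.conj g).injective ?_, (MulAut.conj g).apply_symm_apply y⟩
      rw [map_mul, map_mul, MulEquiv.apply_symm_apply]
      exact h hz
    · rintro ⟨x, hx, rfl⟩ z hz
      show MulAut.conj g z * MulAut.conj g x = MulAut.conj g x * MulAut.conj g z
      rw [← map_mul, ← map_mul, hx z hz]
  rw [← centralizer_range_eq, hmap, Subgroup.card_map_of_injective (MulAut.conj g).injective, eC]

theorem all_conj : ∀ y : ↥Tw4, orderOf y = 5 → IsConj aT y := by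
  refine data.all_conj (fun y hy => ?_) ?_
  · have hp : IsPGroup 5 (Subgroup.zpowers y) := fun z => ⟨1, by
      obtain ⟨j, hj⟩ := z.2
      refine Subtype.ext ?_
      show (z : ↥Tw4) ^ 5 ^ 1 = 1
      rw [← hj, pow_one, ← zpow_natCast, ← zpow_mul, mul_comm, zpow_mul, zpow_natCast, hy, one_zpow]⟩
    obtain ⟨Q, hQ⟩ := hp.exists_le_sylow
    obtain ⟨c, hc⟩ := MulAction.exists_smul_eq (↥Tw4) Q (sylow25 data.card_range)
    refine ⟨c, ?_⟩
    rw [← sylow25_coe data.card_range, ← hc, Sylow.smul_def, Sylow.pointwise_smul_def]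
    exact ⟨y, hQ (Subgroup.mem_zpowers y), rfl⟩
  · intro hn
    rw [card_cent_pair] at hn
    have h1 := (Subgroup.normalizer (data.hom.range : Set ↥Tw4)).card_mul_index
    rw [hn, card_Tw4] at h1
    have h2 : Nat.card (Sylow 5 ↥Tw4) =
        (Subgroup.normalizer (data.hom.range : Set ↥Tw4)).index := by
      rw [(sylow25 data.card_range).card_eq_index_normalizer]
      exact congrArg (fun H : Subgroup ↥Tw4 => (Subgroup.normalizer (H : Set ↥Tw4)).index)
        (sylow25_coe data.card_range)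
    have h3 := card_sylow_modEq_one 5 ↥Tw4
    rw [h2, Nat.ModEq] at h3
    omega

end Cfsg.Agent.TwE6Five
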