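import Cfsg.Agent.TwE6Five.Field16
import Cfsg.Agent.EInvol.E6
import Cfsg.Agent.ChevTw.TwE6

/-!
The twisted group of type E6 over four elements inside the Chevalley group over sixteen: the basic objects for the
centraliser of an element of order five (owner: helper16).
-/

set_option autoImplicit false

namespace Cfsg.Agent.TwE6Five

open Cfsg Cfsg.Lie Cfsg.Agent.ChevGrp Cfsg.Agent.GFour25

/-- The ambient group over four elements. -/
abbrev G4 : Type := GL chevE6.Idx F4

/-- The ambient group over sixteen elements. -/
abbrev G16 : Type := GL chevE6.Idx F16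

/-- A root element. -/
noncomputable abbrev X4 (r : ℕ) (t : F4) : G4 := xGL chevE6 F4 r t

/-- A root element over sixteen elements. -/
noncomputable abbrev X16 (r : ℕ) (t : F16) : G16 := xGL chevE6 F16 r t

theorem good : EInvol.Good chevE6 Chev.lenCertE6.len := EInvol.E6.good

theorem rulesE (K : Type*) [Field K] : Rules chevE6 K := ChevTw.rulesE6 K

theorem rootTable : RootTable chevE6 Chev.lenCertE6.len := good.root

/-- The twisted group. -/
abbrev Tw4 : Subgroup G4 := twistedE6 F4 2

/-- The inclusion of the group over four elements. -/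
noncomputable def iota : G4 →* G16 := Matrix.GeneralLinearGroup.map (n := chevE6.Idx) emb

theorem iota_injective : Function.Injective iota := glMap_injective chevE6 emb

theorem iota_X (r : ℕ) (t : F4) : iota (X4 r t) = X16 r (emb t) := by
  refine Units.ext ?_
  show ((X4 r t : G4) : Matrix chevE6.Idx chevE6.Idx F4).map emb = _
  rw [val_xGL (rulesE F4), val_xGL (rulesE F16), x_map]

/-- The square map. -/
def sq16 : F16 →+* F16 where
  toFun x := x * x
  map_one' := one_mul 1
  map_zero' := mul_zero 0
  map_mul' x y := mul_mul_mul_comm x y x y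
  map_add' x y := by
    rw [add_mul, mul_add, mul_add, add_assoc, ← add_assoc (x * y), mul_comm y x, CharTwo.add_self_eq_zero, zero_add]

/-- The defining endomorphism: the graph automorphism after the square map. -/
noncomputable def sig : G16 →* G16 :=
  (ChevTw.symE6_ok.glEquiv F16).toMonoidHom.comp (Matrix.GeneralLinearGroup.map (n := chevE6.Idx) sq16)

/-- The graph symmetry of the roots. -/
def rho (r : ℕ) : ℕ := ChevTw.symE6.rho r

theorem sig_X {r : ℕ} (hr : r < chevE6.nroots) (t : F16) : sig (X16 r t) = X16 (rho r) (t * t) := by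
  refine Units.ext ?_
  rw [val_xGL (rulesE F16)]
  have e : ((Matrix.GeneralLinearGroup.map (n := chevE6.Idx) sq16 (X16 r t) : G16) :
      Matrix chevE6.Idx chevE6.Idx F16) = chevE6.x F16 r (sq16 t) := by
    rw [← x_map chevE6 sq16, ← val_xGL (rulesE F16)]
    rfl
  refine (ChevTw.symE6_ok.glEquiv_x hr e).trans ?_
  congr 1
  rcases (show ChevTw.symE6.sgn r = 1 ∨ ChevTw.symE6.sgn r = -1 by
    have := ChevTw.symE6.sgn_mul_self r
    rcases Int.eq_one_or_neg_one_of_mul_eq_one this with h | h
    · exact Or.inl h
    · exact Or.inr h) with h | h <;> simp [h, sq16, CharTwo.neg_eq]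

/-- The roots orthogonal to the two exchanged simple roots. -/
def phiT : List ℕ := [0, 1, 2, 24, 25, 32, 39, 46, 47, 69, 70, 71]

/-- The group of the sub-system orthogonal to the two exchanged simple roots, over two elements. -/
noncomputable def L2 : Subgroup G4 := Subgroup.closure {g | ∃ r ∈ phiT, g = X4 r 1}

/-- The element of order five: the companion matrix in the first rank one group times its conjugate. -/
noncomputable def xEl : G4 :=
  (X4 56 om4 * (X4 56 1 * X4 15 1 * X4 56 1)) * (X4 36 (om4 * om4) * (X4 36 1 * X4 35 1 * X4 36 1))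

end Cfsg.Agent.TwE6Five
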