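import Cfsg.Agent.GFour25.Basic

/-! A computable model of the field with sixteen elements over the one with four elements (owner: helper16). -/

set_option autoImplicit false

namespace Cfsg.Agent.TwE6Five

open Cfsg.Agent.GFour25

/-- The field with sixteen elements: `mk a b` stands for `a + b z` with `z^2 = w z + 1`. -/
structure F16 where
  /-- coefficient of one -/
  re : F4
  /-- coefficient of `z` -/
  im : F4
deriving DecidableEq

/-- `F16` as pairs. -/
def F16.equiv : F16 ≃ F4 × F4 where
  toFun x := (x.re, x.im)
  invFun p := ⟨p.1, p.2⟩
  left_inv _ := rfl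
  right_inv _ := rfl

instance instFintypeF16 : Fintype F16 := Fintype.ofEquiv _ F16.equiv.symm

theorem card_F16 : Fintype.card F16 = 16 := by
  rw [Fintype.card_congr F16.equiv, Fintype.card_prod, card_F4]

/-- The generator of the field with four elements. -/
def om4 : F4 := ⟨false, true⟩

instance instZeroF16 : Zero F16 := ⟨⟨0, 0⟩⟩
instance instOneF16 : One F16 := ⟨⟨1, 0⟩⟩
instance instAddF16 : Add F16 := ⟨fun x y => ⟨x.re + y.re, x.im + y.im⟩⟩
instance instNegF16 : Neg F16 := ⟨fun x => x⟩
instance instMulF16 : Mul F16 :=
  ⟨fun x y => ⟨x.re * y.re + x.im * y.im, x.re * y.im + x.im * y.re + om4 * (x.im * y.im)⟩⟩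

/-- The inverse: the fourteenth power. -/
def F16.inv' (x : F16) : F16 :=
  let x2 := x * x
  let x4 := x2 * x2
  x4 * x4 * (x4 * x2)

instance instInvF16 : Inv F16 := ⟨F16.inv'⟩

set_option maxRecDepth 100000 in
set_option maxHeartbeats 0 in
instance instFieldF16 : Field F16 where
  add_assoc := by decide +kernel
  zero_add := by decide +kernel
  add_zero := by decide +kernel
  add_comm := by decide +kernel
  neg_add_cancel := by decide +kernel
  nsmul := nsmulRec
  zsmul := zsmulRec
  mul_assoc := by decide +kernel
  one_mul := by decide +kernel
  mul_one := by decide +kernel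
  zero_mul := by decide +kernel
  mul_zero := by decide +kernel
  left_distrib := by decide +kernel
  right_distrib := by decide +kernel
  mul_comm := by decide +kernel
  exists_pair_ne := ⟨0, 1, by decide +kernel⟩
  mul_inv_cancel := by decide +kernel
  inv_zero := by decide +kernel
  nnqsmul := _
  qsmul := _

instance instCharPF16 : CharP F16 2 :=
  (CharTwo.of_one_ne_zero_of_two_eq_zero one_ne_zero (by rw [← one_add_one_eq_two]; decide +kernel))

/-- The inclusion of the field with four elements. -/
def emb : F4 →+* F16 where
  toFun a := ⟨a, 0⟩
  map_one' := rfl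
  map_zero' := rfl
  map_mul' := by decide +kernel
  map_add' := by decide +kernel

theorem emb_injective : Function.Injective emb := emb.injective

/-- The generator of the field with sixteen elements over the one with four. -/
def zeta : F16 := ⟨0, 1⟩

/-- The image of the generator of the field with four elements. -/
def om : F16 := ⟨om4, 0⟩

theorem emb_om : emb om4 = om := rfl

theorem zeta_pow_five : zeta ^ 5 = 1 := by decide +kernel

theorem mem_range_emb (x : F16) (h : (x ^ 4) = x) : ∃ a, emb a = x := by
  revert x; decide +kernel

end Cfsg.Agent.TwE6Five
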