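import Cfsg.Agent.TwE6Five.Defs

/-!
An element of order five of the twisted group is conjugate over sixteen elements to a torus element, and the defining
endomorphism fixes the twisted group (owner: helper16).
-/

set_option autoImplicit false

namespace Cfsg.Agent.TwE6Five

open Cfsg Cfsg.Lie Cfsg.Agent.ChevGrp Cfsg.Agent.GFour25

/-- The system of the group over sixteen elements. -/
noncomputable abbrev S16 := glSys (rulesE F16)

/-- `SL(2,16)`. -/
abbrev SL2 : Type := Matrix.SpecialLinearGroup (Fin 2) F16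

theorem xU_eq {r : ℕ} (hr : r < chevE6.nroots) (t : F16) : Chev.validE6.xU hr t = X16 r t :=
  Units.ext (val_xGL (rulesE F16) r t).symm

/-- The rank one group of a root. -/
noncomputable def phi (r : ℕ) (hr : r < chevE6.nroots) : SL2 →* G16 := (Chev.validE6.rankOne hr).hom

theorem phi_upper {r : ℕ} (hr : r < chevE6.nroots) {g : SL2} {t : F16} (hg : g.1 = !![1, t; 0, 1]) :
    phi r hr g = X16 r t := by
  rw [phi, Chev.RankOne.hom_upper _ hg, xU_eq]

theorem phi_lower {r : ℕ} (hr : r < chevE6.nroots) {g : SL2} {t : F16} (hg : g.1 = !![1, 0; t, 1]) :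
    phi r hr g = X16 (chevE6.neg r) t := by
  rw [phi, Chev.RankOne.hom_lower _ hg, xU_eq]

/-- The upper unitriangular matrices. -/
abbrev uS (t : F16) : SL2 := Chev.RankOne.upper t

/-- The lower unitriangular matrix. -/
def lS : SL2 := ⟨!![1, 0; 1, 1], by decide +kernel⟩

/-- The exchange of the two coordinates. -/
def wS : SL2 := ⟨!![0, 1; 1, 0], by decide +kernel⟩

theorem phi_wS {r : ℕ} (hr : r < chevE6.nroots) : phi r hr wS = S16.nEl r 1 := by
  have e : wS = uS 1 * lS * uS 1 :=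
    Subtype.ext (by decide +kernel)
  rw [e, map_mul, map_mul, phi_upper hr rfl, phi_lower hr rfl]
  simp [Sys.nEl, CharTwo.neg_eq, glSys]

theorem phi_diag {r : ℕ} (hr : r < chevE6.nroots) {g : SL2} {a : F16} (hg : g.1 = !![a, 0; 0, a⁻¹]) :
    phi r hr g = S16.hEl r a := by
  show Chev.RankOne.val _ _ g.1 = _
  rw [hg]
  simp [Chev.RankOne.val, Chev.RankOne.valE_zero, Chev.RankOne.h, Chev.RankOne.w, Sys.hEl, Sys.nEl, xU_eq, glSys,
    (Chev.validE6.rankOne hr).x_zero, CharTwo.neg_eq]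

theorem hom_ext_sl2 {H : Type*} [Group H] {f g : SL2 →* H}
    (hu : ∀ t, f (Chev.RankOne.upper t) = g (Chev.RankOne.upper t))
    (hl : ∀ l : SL2, l.1 = !![1, 0; 1, 1] → f l = g l) : f = g := by
  refine MonoidHom.ext fun a => ?_
  have hw : (Chev.RankOne.weyl : SL2) =
      uS 1 * lS * uS 1 :=
    Subtype.ext (by decide +kernel)
  exact Chev.RankOne.mem_of_upper_weyl (S := MonoidHom.eqLocusM f g) hu
    (by show f _ = g _; rw [hw]; simp only [map_mul, hu]; rw [hl _ rfl]) a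

theorem rho_small : rho 56 = 36 ∧ rho 36 = 56 ∧ rho 15 = 35 ∧ rho 35 = 15 ∧ chevE6.neg 56 = 15 ∧
    chevE6.neg 36 = 35 ∧ chevE6.nroots = 72 ∧ chevE6.simple 0 = 56 ∧ chevE6.simple 5 = 36 := by decide +kernel

theorem h56 : 56 < chevE6.nroots := by decide +kernel

theorem h36 : 36 < chevE6.nroots := by decide +kernel

/-- The entrywise square on `SL(2,16)`. -/
noncomputable def sqS : SL2 →* SL2 := Matrix.SpecialLinearGroup.map sq16

theorem sqS_val (g : SL2) : (sqS g).1 = g.1.map sq16 := rfl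

theorem map_upper (t : F16) : (sqS (Chev.RankOne.upper t)).1 = !![1, t * t; 0, 1] := by
  rw [sqS_val]
  ext i j; fin_cases i <;> fin_cases j <;> simp [Chev.RankOne.upper, sq16]

theorem sig_phi {r s : ℕ} (hr : r < chevE6.nroots) (hs : s < chevE6.nroots) (hn : chevE6.neg r < chevE6.nroots)
    (e : rho r = s) (e' : rho (chevE6.neg r) = chevE6.neg s) :
    sig.comp (phi r hr) = (phi s hs).comp sqS := by
  refine hom_ext_sl2 (fun t => ?_) fun l hl => ?_
  · show sig (phi r hr _) = phi s hs (sqS _)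
    rw [phi_upper hr rfl, sig_X hr, e, phi_upper hs (map_upper t)]
  · show sig (phi r hr _) = phi s hs (sqS _)
    rw [phi_lower hr hl, sig_X hn, e', phi_lower hs (t := 1 * 1)]
    rw [sqS_val, hl]
    ext i j; fin_cases i <;> fin_cases j <;> simp [sq16]

theorem sig_phi56 (g : SL2) : sig (phi 56 h56 g) = phi 36 h36 (sqS g) :=
  DFunLike.congr_fun (sig_phi h56 h36 (by decide +kernel) rho_small.1
    (by decide +kernel)) g

theorem sig_phi36 (g : SL2) : sig (phi 36 h36 g) = phi 56 h56 (sqS g) :=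
  DFunLike.congr_fun (sig_phi h36 h56 (by decide +kernel) rho_small.2.1
    (by decide +kernel)) g

theorem pr_small : ∀ a ∈ [56, 15], ∀ b ∈ [36, 35], a < chevE6.nroots ∧ b < chevE6.nroots ∧ 0 ≤ EInvol.pr chevE6 a b := by
  decide +kernel

theorem commute_phi (g h : SL2) : Commute (phi 56 h56 g) (phi 36 h36 h) := by
  have hg : phi 56 h56 g ∈ Subgroup.closure
      (Set.range (Chev.validE6.xU (F := F16) h56) ∪ Set.range (Chev.validE6.xU (F := F16) (Chev.validE6.neg_lt h56))) := by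
    rw [← Chev.RankOne.hom_range (Chev.validE6.rankOne h56)]; exact ⟨g, rfl⟩
  have hh : phi 36 h36 h ∈ Subgroup.closure
      (Set.range (Chev.validE6.xU (F := F16) h36) ∪ Set.range (Chev.validE6.xU (F := F16) (Chev.validE6.neg_lt h36))) := by
    rw [← Chev.RankOne.hom_range (Chev.validE6.rankOne h36)]; exact ⟨h, rfl⟩
  have key : ∀ a ∈ [56, 15], ∀ b ∈ [36, 35], ∀ t u : F16, Commute (X16 a t) (X16 b u) := fun a ha b hb t u =>
    EInvol.X_commute (rulesE F16) good (pr_small a ha b hb).1 (pr_small a ha b hb).2.1 (pr_small a ha b hb).2.2 t u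
  refine Subgroup.closure_induction (p := fun x _ => Commute x (phi 36 h36 h)) (fun x hx => ?_)
    (Commute.one_left _) (fun _ _ _ _ => Commute.mul_left) (fun _ _ => Commute.inv_left) hg
  refine Subgroup.closure_induction (p := fun y _ => Commute x y) (fun y hy => ?_)
    (Commute.one_right _) (fun _ _ _ _ => Commute.mul_right) (fun _ _ => Commute.inv_right) hh
  rcases hx with ⟨t, rfl⟩ | ⟨t, rfl⟩ <;> rcases hy with ⟨u, rfl⟩ | ⟨u, rfl⟩ <;> rw [xU_eq, xU_eq]
  · exact key 56 (by simp) 36 (by simp) t u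
  · rw [rho_small.2.2.2.2.2.1]; exact key 56 (by simp) 35 (by simp) t u
  · rw [rho_small.2.2.2.2.1]; exact key 15 (by simp) 36 (by simp) t u
  · rw [rho_small.2.2.2.2.1, rho_small.2.2.2.2.2.1]; exact key 15 (by simp) 35 (by simp) t u

/-- The companion matrix. -/
def mS : SL2 := ⟨!![om, 1; 1, 0], by decide +kernel⟩

/-- The eigenvectors of the companion matrix. -/
def qS : SL2 := ⟨!![om * zeta, om * (zeta + om); om, om], by decide +kernel⟩

/-- The eigenvalues. -/
def dS : SL2 := ⟨!![zeta, 0; 0, zeta⁻¹], by decide +kernel⟩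

theorem m_q : mS * qS = qS * dS := Subtype.ext (by decide +kernel)

theorem sq_m_q : sqS mS * sqS qS = sqS qS * sqS dS := by rw [← map_mul, m_q, map_mul]

theorem sq_q : sqS (sqS qS) = qS * wS := Subtype.ext (by rw [sqS_val, sqS_val]; decide +kernel)

/-- The conjugating element. -/
noncomputable def g0 : G16 := phi 56 h56 qS * phi 36 h36 (sqS qS)

/-- The torus element of order five. -/
noncomputable def tEl : G16 := phi 56 h56 dS * phi 36 h36 (sqS dS)

/-- The first node. -/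
def node0 : Fin chevE6.rank := ⟨0, by decide +kernel⟩

/-- The sixth node. -/
def node5 : Fin chevE6.rank := ⟨5, by decide +kernel⟩

/-- The involution by which the endomorphism moves the conjugating element. -/
noncomputable def nEl0 : G16 := S16.nI node0

theorem phi_wS_eq : phi 56 h56 wS = nEl0 := by
  rw [phi_wS, nEl0, Sys.nI, show chevE6.simple (node0 : ℕ) = 56 from rho_small.2.2.2.2.2.2.2.1]

theorem nEl0_sq : nEl0 * nEl0 = 1 := by
  rw [← phi_wS_eq, ← map_mul, show wS * wS = 1 from Subtype.ext (by decide +kernel), map_one]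

theorem phi_mS {r : ℕ} (hr : r < chevE6.nroots) : phi r hr mS =
    X16 r om * (X16 r 1 * X16 (chevE6.neg r) 1 * X16 r 1) := by
  have e : mS = uS om *
      (uS 1 * lS * uS 1) :=
    Subtype.ext (by decide +kernel)
  rw [e, map_mul, map_mul, map_mul, phi_upper hr rfl, phi_upper hr rfl, phi_lower hr rfl]

theorem iota_xEl : iota xEl = phi 56 h56 mS * phi 36 h36 (sqS mS) := by
  have e : sqS mS = uS (om * om) *
      (uS 1 * lS * uS 1) :=
    Subtype.ext (by rw [sqS_val]; decide +kernel)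
  rw [phi_mS, e, map_mul, map_mul, map_mul, phi_upper h36 rfl, phi_upper h36 rfl, phi_lower h36 rfl,
    rho_small.2.2.2.2.1, rho_small.2.2.2.2.2.1]
  simp only [xEl, map_mul, iota_X, map_one, emb_om]

theorem xEl_conj : iota xEl * g0 = g0 * tEl := by
  rw [iota_xEl, g0, tEl, (commute_phi qS (sqS mS)).symm.mul_mul_mul_comm, ← map_mul, ← map_mul, m_q, sq_m_q,
    (commute_phi dS (sqS qS)).symm.mul_mul_mul_comm, map_mul, map_mul]

theorem sig_g0 : sig g0 = g0 * nEl0 := by
  rw [g0, map_mul, sig_phi56, sig_phi36, sq_q, ← phi_wS_eq]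
  calc phi 36 h36 (sqS qS) * phi 56 h56 (qS * wS) = phi 56 h56 (qS * wS) * phi 36 h36 (sqS qS) :=
        (commute_phi (qS * wS) (sqS qS)).eq.symm
    _ = phi 56 h56 qS * phi 56 h56 wS * phi 36 h36 (sqS qS) := by rw [map_mul]
    _ = _ := by rw [mul_assoc, (commute_phi wS (sqS qS)).eq, ← mul_assoc]

/-- The character of the torus element. -/
def chiE (r : ℕ) : ℤ := chevE6.cartan 0 r + 2 * chevE6.cartan 5 r

theorem tEl_eq : tEl = S16.hEl 56 zeta * S16.hEl 36 (zeta * zeta) := by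
  rw [tEl, phi_diag h56 rfl, phi_diag h36 (a := zeta * zeta)]
  rw [sqS_val]
  decide +kernel

theorem zeta_ne : zeta ≠ 0 := by decide +kernel

theorem tEl_X {r : ℕ} (hr : r < chevE6.nroots) (u : F16) :
    tEl * X16 r u * tEl⁻¹ = X16 r (zeta ^ chiE r * u) := by
  have h0 := S16.conjP_hI (rulesE F16) rootTable node0 zeta_ne
  have h5 := S16.conjP_hI (rulesE F16) rootTable node5 (mul_ne_zero zeta_ne zeta_ne)
  rw [show chevE6.simple (node0 : ℕ) = 56 from rho_small.2.2.2.2.2.2.2.1] at h0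
  rw [show chevE6.simple (node5 : ℕ) = 36 from rho_small.2.2.2.2.2.2.2.2] at h5
  rw [tEl_eq, mul_inv_rev]
  calc S16.hEl 56 zeta * S16.hEl 36 (zeta * zeta) * X16 r u *
        ((S16.hEl 36 (zeta * zeta))⁻¹ * (S16.hEl 56 zeta)⁻¹)
      = S16.hEl 56 zeta * (S16.hEl 36 (zeta * zeta) * X16 r u * (S16.hEl 36 (zeta * zeta))⁻¹) *
          (S16.hEl 56 zeta)⁻¹ := by group
    _ = _ := by
      erw [h5 r hr u, h0 r hr]
      show X16 r _ = _
      rw [← mul_assoc, chiE, zpow_add₀ zeta_ne, zpow_mul, ← zpow_two, zpow_ofNat]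
      rfl

theorem tEl_mem_Hbar : tEl ∈ S16.Hbar := by
  rw [tEl_eq]
  refine mul_mem (Subgroup.subset_closure ⟨node0, zeta, zeta_ne, ?_⟩)
    (Subgroup.subset_closure ⟨node5, zeta * zeta, mul_ne_zero zeta_ne zeta_ne, ?_⟩)
  · rw [show chevE6.simple (node0 : ℕ) = 56 from rho_small.2.2.2.2.2.2.2.1]
  · rw [show chevE6.simple (node5 : ℕ) = 36 from rho_small.2.2.2.2.2.2.2.2]

theorem g0_mem : g0 ∈ S16.Gbar := by
  have key : ∀ (r : ℕ) (hr : r < chevE6.nroots) (g : SL2), phi r hr g ∈ S16.Gbar := by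
    intro r hr g
    have h : phi r hr g ∈ Subgroup.closure (Set.range (Chev.validE6.xU (F := F16) hr) ∪
        Set.range (Chev.validE6.xU (F := F16) (Chev.validE6.neg_lt hr))) := by
      rw [← Chev.RankOne.hom_range (Chev.validE6.rankOne hr)]; exact ⟨g, rfl⟩
    refine (Subgroup.closure_le _).2 ?_ h
    rintro _ (⟨t, rfl⟩ | ⟨t, rfl⟩) <;> rw [xU_eq]
    · exact S16.x_mem_Gbar hr t
    · exact S16.x_mem_Gbar (Chev.validE6.neg_lt hr) t
  exact mul_mem (key _ _ _) (key _ _ _)

theorem iota_mem_Gbar {y : G4} (hy : y ∈ Tw4) : iota y ∈ S16.Gbar := by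
  refine (show Tw4 ≤ (S16.Gbar).comap iota from (Subgroup.closure_le _).2 ?_) hy
  rintro g ⟨w, hw, hg⟩
  rw [SetLike.mem_coe, Subgroup.mem_comap, ChevTw.eq_word_of_mat (rulesE F4) hg, map_list_prod, List.map_map]
  refine list_prod_mem fun z hz => ?_
  obtain ⟨⟨r, t⟩, hp, rfl⟩ := List.mem_map.1 hz
  show iota (X4 r t) ∈ _
  rw [iota_X]
  refine S16.x_mem_Gbar ?_ _
  have hs : ∀ r ∈ [46, 25, 39, 32, 56, 36, 15, 35, 42, 37, 29, 34], r < chevE6.nroots := by decide +kernel
  rcases hw with ⟨u, -, a, ha, rfl⟩ | ⟨u, rs, hrs, rfl⟩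
  · simp only [List.mem_singleton] at hp
    obtain ⟨rfl, rfl⟩ := Prod.mk.inj hp
    refine hs _ ?_
    simp [e6p2, e6m2, e6p4, e6m4] at ha
    rcases ha with rfl | rfl | rfl | rfl <;> simp
  · simp [e6p1, e6p6, e6m1, e6m6, e6p3, e6p5, e6m3, e6m5] at hrs
    rcases hrs with rfl | rfl | rfl | rfl <;> simp at hp <;> rcases hp with ⟨rfl, -⟩ | ⟨rfl, -⟩ <;>
      exact hs _ (by simp)

theorem four_pow : ∀ t : F4, t ^ 2 * t ^ 2 = t := by decide +kernel

theorem sig_iota {y : G4} (hy : y ∈ Tw4) : sig (iota y) = iota y := by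
  refine (show Tw4 ≤ MonoidHom.eqLocus (sig.comp iota) iota from (Subgroup.closure_le _).2 ?_) hy
  rintro g ⟨w, hw, hg⟩
  show sig (iota g) = iota g
  rw [ChevTw.eq_word_of_mat (rulesE F4) hg]
  have hfix : ∀ r ∈ [46, 25, 39, 32], rho r = r ∧ r < chevE6.nroots := by decide +kernel
  have hpair : ∀ p ∈ [(56, 36), (15, 35), (42, 37), (29, 34)],
      rho p.1 = p.2 ∧ rho p.2 = p.1 ∧ p.1 < chevE6.nroots ∧ p.2 < chevE6.nroots ∧
        0 ≤ EInvol.pr chevE6 p.1 p.2 := by decide +kernel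
  rcases hw with ⟨t, ht, r, hr, rfl⟩ | ⟨t, rs, hrs, rfl⟩
  · simp only [List.map_cons, List.map_nil, List.prod_cons, List.prod_nil, mul_one]
    show sig (iota (X4 r t)) = iota (X4 r t)
    obtain ⟨h1, h2⟩ := hfix r (by simp [e6p2, e6m2, e6p4, e6m4] at hr ⊢; omega)
    rw [iota_X, sig_X h2, h1, ← map_mul, ← pow_two, ht]
  · have hrs' : rs ∈ [(56, 36), (15, 35), (42, 37), (29, 34)] := by
      simpa [e6p1, e6p6, e6m1, e6m6, e6p3, e6p5, e6m3, e6m5] using hrs
    obtain ⟨h1, h2, h3, h4, h5⟩ := hpair rs hrs'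
    simp only [List.map_cons, List.map_nil, List.prod_cons, List.prod_nil, mul_one]
    show sig (iota (X4 rs.1 t * X4 rs.2 (t ^ 2))) = iota (X4 rs.1 t * X4 rs.2 (t ^ 2))
    rw [map_mul, map_mul, iota_X, iota_X, sig_X h3, sig_X h4, h1, h2, ← map_mul, ← map_mul,
      four_pow t, ← pow_two,
      (EInvol.X_commute (rulesE F16) good h3 h4 h5 (emb t) (emb (t ^ 2))).eq]

end Cfsg.Agent.TwE6Five
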