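import Cfsg.Agent.TwE6Fi22.Diag
import Cfsg.Agent.TwE6Five.WordsData

/-!
Generated words for a Sylow 5-subgroup of the twisted group of type E6 over four elements, inside a product of two
commuting groups Sp4(2), with an element normalising it and an element exchanging the factors (owner: helper16).
-/

set_option autoImplicit false

namespace Cfsg.Agent.TwE6Five

open Cfsg Cfsg.Lie Cfsg.Agent.GFour25 Cfsg.Agent.TwE6Fi22

/-- The first element of order five. -/
def aW : List ℕ := [4, 7, 4, 2, 3, 2, 10, 13, 10, 2, 3, 2, 1, 2, 3, 2, 10, 13, 10, 2, 3, 2, 4, 7, 4, 10, 4, 7, 4, 2, 3, 2, 10, 13, 10, 2, 3, 2, 0, 2, 3, 2, 10, 13, 10, 2, 3, 2, 4, 7, 4, 13]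

/-- An element squaring the first and fixing the second. -/
def dW : List ℕ := [4, 7, 4, 2, 3, 2, 10, 13, 10, 2, 3, 2, 1, 0, 1, 2, 3, 2, 10, 13, 10, 2, 3, 2, 4, 7, 4, 13, 10, 4, 7, 4, 2, 3, 2, 10, 13, 10, 2, 3, 2, 0, 1, 2, 3, 2, 10, 13, 10, 2, 3, 2, 4, 7, 4, 10, 13]

/-- The exchange of the two factors. -/
def sW : List ℕ := [4, 7, 4, 10, 13, 10, 2, 3, 2, 10, 13, 10, 4, 7, 4, 2, 3, 2]

/-- The value of a word in the letters. -/
noncomputable def lword (w : List ℕ) : GLV := (w.map letter).prod

theorem lword_append (v w : List ℕ) : lword (v ++ w) = lword v * lword w := by simp [lword]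

theorem lword_nil : lword [] = 1 := rfl

/-- Equality of two rows. -/
def eqL : List ℕ → List ℕ → Bool
  | [], [] => true
  | a :: as, b :: bs => Nat.beq a b && eqL as bs
  | _, _ => false

theorem eq_of_eqL : ∀ {a b : List ℕ}, eqL a b = true → a = b
  | [], [], _ => rfl
  | x :: a, y :: b, h => by
    simp only [eqL, Bool.and_eq_true] at h
    rw [Nat.eq_of_beq_eq_true h.1, eq_of_eqL h.2]
  | [], _ :: _, h => by simp [eqL] at h
  | _ :: _, [], h => by simp [eqL] at h

/-- The rows of the suffixes of a word, one after another. -/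
def chainB : List ℕ → List (List ℕ) → Bool
  | [], [] => true
  | [k], [t] => Nat.blt k 16 && eqL t (mulRow (colTab.getD k []) idR)
  | k :: w, t :: u :: ts => Nat.blt k 16 && eqL t (mulRow (colTab.getD k []) u) && chainB w (u :: ts)
  | _, _ => false

theorem idR_rep : Rep (1 : GLV) idR := by
  refine rep_of_bits (by decide +kernel) fun b hb => ?_
  have h : ∀ b : Fin 78, idR.getD b.val 0 = 2 ^ b.val := by decide +kernel
  rw [mv_one, h ⟨b, hb⟩, dec_two_pow]

theorem rep_chain : ∀ {w : List ℕ} {ts : List (List ℕ)}, chainB w ts = true →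
    Rep (lword w) (ts.headD idR)
  | [], [], _ => idR_rep
  | [k], [t], h => by
    simp only [chainB, Bool.and_eq_true] at h
    have := (rep_letter (Nat.blt_eq.mp h.1)).mul idR_rep
    rw [← eq_of_eqL h.2, mul_one] at this
    simpa [lword] using this
  | k :: k' :: w, t :: u :: ts, h => by
    simp only [chainB, Bool.and_eq_true] at h
    have := (rep_letter (Nat.blt_eq.mp h.1.1)).mul (rep_chain h.2)
    rw [List.headD_cons, ← eq_of_eqL h.1.2] at this
    simpa [lword] using this
  | [_], _ :: _ :: _, h => by simp [chainB] at h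
  | _ :: _ :: _, [_], h => by simp [chainB] at h
  | _ :: _, [], h => by simp [chainB] at h
  | [], _ :: _, h => by simp [chainB] at h

set_option maxHeartbeats 0 in
set_option maxRecDepth 100000 in
theorem s_chain : chainB sW sChain = true := by decide +kernel

set_option maxHeartbeats 0 in
set_option maxRecDepth 100000 in
theorem r_chain : chainB sW.reverse rChain = true := by decide +kernel

set_option maxHeartbeats 0 in
set_option maxRecDepth 100000 in
theorem a_chain : chainB aW aChain = true := by decide +kernel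

set_option maxHeartbeats 0 in
set_option maxRecDepth 100000 in
theorem d_chain : chainB dW dChain = true := by decide +kernel

/-- The second element of order five. -/
def bW : List ℕ := sW ++ aW ++ sW.reverse

set_option maxHeartbeats 0 in
set_option maxRecDepth 100000 in
theorem rows_ok : (eqL aR (aChain.headD idR) && eqL dR (dChain.headD idR) && eqL sR (sChain.headD idR) &&
    eqL sRr (rChain.headD idR) && eqL asR (mulRow aR sRr) && eqL bR (mulRow sR asR) && eqL a2R (mulRow aR aR) &&
    eqL a3R (mulRow aR a2R) && eqL a4R (mulRow a2R a2R)) = true := by decide +kernel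

set_option maxHeartbeats 0 in
set_option maxRecDepth 100000 in
theorem rels_ok : (eqL idR (mulRow aR a4R) && eqL abR (mulRow aR bR) && eqL abR (mulRow bR aR) && eqL daR (mulRow dR aR) &&
    eqL daR (mulRow a2R dR) && eqL dbR (mulRow dR bR) && eqL dbR (mulRow bR dR) && eqL idR (mulRow sRr sR) &&
    eqL sbR (mulRow sR bR) && eqL sbR (mulRow aR sR)) = true := by decide +kernel

theorem rep_a : Rep (lword aW) aR := by
  have h := rows_ok; simp only [Bool.and_eq_true] at h
  rw [eq_of_eqL h.1.1.1.1.1.1.1.1]; exact rep_chain a_chain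

theorem rep_d : Rep (lword dW) dR := by
  have h := rows_ok; simp only [Bool.and_eq_true] at h
  rw [eq_of_eqL h.1.1.1.1.1.1.1.2]; exact rep_chain d_chain

theorem rep_s : Rep (lword sW) sR := by
  have h := rows_ok; simp only [Bool.and_eq_true] at h
  rw [eq_of_eqL h.1.1.1.1.1.1.2]; exact rep_chain s_chain

theorem rep_sr : Rep (lword sW.reverse) sRr := by
  have h := rows_ok; simp only [Bool.and_eq_true] at h
  rw [eq_of_eqL h.1.1.1.1.1.2]; exact rep_chain r_chain

theorem rep_b : Rep (lword bW) bR := by
  have h := rows_ok; simp only [Bool.and_eq_true] at h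
  rw [bW, lword_append, lword_append, mul_assoc, eq_of_eqL h.1.1.1.2, eq_of_eqL h.1.1.1.1.2]
  exact rep_s.mul (rep_a.mul rep_sr)

theorem a_pow : lword aW ^ 5 = 1 := by
  have h := rows_ok; simp only [Bool.and_eq_true] at h
  have h' := rels_ok; simp only [Bool.and_eq_true] at h'
  have h2 : Rep (lword aW ^ 2) a2R := by rw [eq_of_eqL h.1.1.2, pow_two]; exact rep_a.mul rep_a
  have h4 : Rep (lword aW ^ 4) a4R := by
    rw [eq_of_eqL h.2, show 4 = 2 + 2 from rfl, pow_add]; exact h2.mul h2
  refine Rep.unique ?_ idR_rep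
  rw [eq_of_eqL h'.1.1.1.1.1.1.1.1.1, pow_succ']
  exact rep_a.mul h4

theorem a_b : lword aW * lword bW = lword bW * lword aW := by
  have h := rels_ok; simp only [Bool.and_eq_true] at h
  have e1 := rep_a.mul rep_b; rw [← eq_of_eqL h.1.1.1.1.1.1.1.1.2] at e1
  have e2 := rep_b.mul rep_a; rw [← eq_of_eqL h.1.1.1.1.1.1.1.2] at e2
  exact e1.unique e2

theorem d_a : lword dW * lword aW = lword aW ^ 2 * lword dW := by
  have h := rels_ok; simp only [Bool.and_eq_true] at h
  have h' := rows_ok; simp only [Bool.and_eq_true] at h'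
  have e1 := rep_d.mul rep_a; rw [← eq_of_eqL h.1.1.1.1.1.1.2] at e1
  have e2 := (rep_a.mul rep_a).mul rep_d
  rw [← eq_of_eqL h'.1.1.2, ← eq_of_eqL h.1.1.1.1.1.2] at e2
  rw [pow_two]
  exact e1.unique e2

theorem d_b : lword dW * lword bW = lword bW * lword dW := by
  have h := rels_ok; simp only [Bool.and_eq_true] at h
  have e1 := rep_d.mul rep_b; rw [← eq_of_eqL h.1.1.1.1.2] at e1
  have e2 := rep_b.mul rep_d; rw [← eq_of_eqL h.1.1.1.2] at e2
  exact e1.unique e2

theorem s_inv : lword sW.reverse * lword sW = 1 := by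
  have h := rels_ok; simp only [Bool.and_eq_true] at h
  have e1 := rep_sr.mul rep_s; rw [← eq_of_eqL h.1.1.2] at e1
  exact e1.unique idR_rep

theorem s_b : lword sW * lword bW = lword aW * lword sW := by
  have h := rels_ok; simp only [Bool.and_eq_true] at h
  have e1 := rep_s.mul rep_b; rw [← eq_of_eqL h.1.2] at e1
  have e2 := rep_a.mul rep_s; rw [← eq_of_eqL h.2] at e2
  exact e1.unique e2

set_option maxHeartbeats 0 in
set_option maxRecDepth 100000 in
theorem col_zero : bR.length = 78 ∧ (([idR, aR, a2R, a3R, a4R].all fun t => !Nat.beq (bR.getD 0 0) (t.getD 0 0)) = true) := by decide +kernel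

end Cfsg.Agent.TwE6Five
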